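import Cfsg.Agent.H225.Gen.Stab
import Cfsg.Agent.H225.Gen.Long
import Cfsg.Agent.H696.GmnToral

/-!
# Long root groups fixed by a twisted Frobenius are conjugate to `X_θ` (S2187, helper225)

* `comm_of_nd` : `X_γ`, `γ (nd) = 0`, commutes with `X_θ` and `X_{-θ}`;
* `exists_rp_fix` : an element of `W` fixing `θ` is represented in `⟨X_γ : γ (nd) = 0⟩`;
* `conj_th` : `k₁ = z⁻¹ σ(z)`, `conj k₁ σ` a frame automorphism fixing the long root `a`: there is a fixed point `y` of `σ`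
  with `X_{± θ}^y = z X_{± a} z⁻¹`.
-/

set_option autoImplicit false
set_option linter.unusedSectionVars false
set_option linter.unusedVariables false

namespace Cfsg.Agent.H225.Gen

open CoxeterSystem Cfsg Cfsg.Lie Cfsg.Lie.ChevalleyDatum
open Cfsg.Agent.ChevalleyStructure Cfsg.Agent.ChevalleyStructure.Elts Cfsg.Agent.ChevalleyStructure.CoxeterGeom
  Cfsg.Agent.ChevalleyStructure.CoxeterGeomTypes Cfsg.Agent.ChevalleyStructure.NPerm
open Cfsg.Agent.Tits.Roots Cfsg.Agent.Tits.Core Cfsg.Agent.Nodes Cfsg.Agent.Nodes.Reps Cfsg.Agent.Nodes.BNOf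
  Cfsg.Agent.Nodes.RGDChev Cfsg.Agent.Nodes.Bruhat Cfsg.Agent.Nodes.NormalForm Cfsg.Agent.Nodes.StabComb
  Cfsg.Agent.Nodes.Coroot Cfsg.Agent.Nodes.SubComb
open Cfsg.Agent.KFacts.RgdField Cfsg.Agent.KFacts.RgdChevCoord
open Cfsg.Agent.BpExc Cfsg.Agent.BpExc.TorCent Cfsg.Agent.BpExc.TorChev Cfsg.Agent.BpExc.Tow
  Cfsg.Agent.BpExc.TowChev Cfsg.Agent.BpExc.Fr Cfsg.Agent.BpExc.Pair Cfsg.Agent.BpExc.LangFr Cfsg.Agent.GpExc.Field
  Cfsg.Agent.BpExc.NInst Cfsg.Agent.BpExc.NChev Cfsg.Agent.BpExc.Asm Cfsg.Agent.BpExc.CommZ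
open Cfsg.Agent.H818.StrP.UTab Cfsg.Agent.H818.StrP.UAct Cfsg.Agent.H123.ExcComb Cfsg.Agent.H696.GmnToral
open scoped commutatorElement

universe u v

variable {D : ChevalleyDatum} {l : ℕ} {M : CoxeterMatrix (Fin l)} (h : HiList D) (hp : IsType D l M) {k : Type u}
  [Field k] {W : Type v} [Group W] (cs : CoxeterSystem M W)

section Roots

include h in
theorem root_nd {a : Fin l → ℤ} (ha : IsRoot cs hp.isCartan a) : a (nd h hp) ≤ 2 ∧ -2 ≤ a (nd h hp) ∧
    (a (nd h hp) = 2 → a = th D l) ∧ (a (nd h hp) = -2 → a = -th D l) := by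
  have key : ∀ a : Fin l → ℤ, IsRoot cs hp.isCartan a → a (nd h hp) ≤ 2 ∧ (a (nd h hp) = 2 → a = th D l) := by
    intro a ha
    obtain ⟨s, hs, rfl⟩ := (isRoot_iff hp cs a).1 ha
    rw [vec_nd]
    refine ⟨rt_le h hs, fun h2 => ?_⟩
    rw [eq_top h hs h2]
  obtain ⟨h1, h2⟩ := key a ha
  obtain ⟨h3, h4⟩ := key (-a) ha.neg
  rw [Pi.neg_apply] at h3 h4
  refine ⟨h1, by omega, h2, fun h5 => ?_⟩
  rw [← h4 (by omega), neg_neg]

/-- the roots orthogonal to `θ` -/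
def SJ (h : HiList D) (hp : IsType D l M) (cs : CoxeterSystem M W) : Set (Fin l → ℤ) :=
  {a | IsRoot cs hp.isCartan a ∧ a (nd h hp) = 0}

/-- **Root groups commuting with `X_{± θ}`.** -/
theorem comm_of_nd {γ β : Fin l → ℤ} (hγ : γ ∈ SJ h hp cs) (hβ : β = th D l ∨ β = -th D l) {x y : ↥(D.group k)}
    (hx : x ∈ XX D l k γ) (hy : y ∈ XX D l k β) : x * y = y * x := by
  have hθ := th_root h hp cs
  have hθn := th_nd (D := D) (l := l) h hp
  obtain ⟨hβr, hβn, hβu⟩ : IsRoot cs hp.isCartan β ∧ (β (nd h hp) = 2 ∨ β (nd h hp) = -2) ∧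
      ∀ z, IsRoot cs hp.isCartan z → z (nd h hp) = β (nd h hp) → z = β := by
    rcases hβ with rfl | rfl
    · exact ⟨hθ, Or.inl hθn, fun z hz h1 => (root_nd h hp cs hz).2.2.1 (by rw [h1, hθn])⟩
    · refine ⟨hθ.neg, Or.inr (by rw [Pi.neg_apply, hθn]), fun z hz h1 => (root_nd h hp cs hz).2.2.2 ?_⟩
      rw [h1, Pi.neg_apply, hθn]
  have h0 := hγ.2
  have h1 : γ ≠ β := by
    rintro rfl
    omega
  have h2 : γ ≠ -β := by
    rintro rfl
    rw [Pi.neg_apply] at h0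
    omega
  have h3 := comm_mem_Z hp cs hγ.1 hβr h1 h2 hx hy
  have h4 : RGD.Sup (XX D l k) (combZ cs hp γ β) ≤ ⊥ := by
    refine RGD.Sup_le fun z hz => ?_
    exfalso
    obtain ⟨hz, i, j, hi, hj, e⟩ := hz
    have h5 : z (nd h hp) = j * β (nd h hp) := by
      rw [e, Pi.add_apply, Pi.smul_apply, Pi.smul_apply, h0, smul_zero, zero_add, nsmul_eq_mul]
    obtain ⟨h6, h7, -, -⟩ := root_nd h hp cs hz
    have h8 : j = 1 := by
      have h9 : (j : ℤ) = 1 := by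
        have hj' : (1 : ℤ) ≤ j := by exact_mod_cast hj
        rcases hβn with h10 | h10
        · rw [h10] at h5; omega
        · rw [h10] at h5; omega
      exact_mod_cast h9
    rw [h8, Nat.cast_one, one_mul] at h5
    have h9 := hβu z hz h5
    rw [h8, one_nsmul, h9] at e
    have h10 : i • γ = 0 := by
      have : β = i • γ + β := e
      exact (add_eq_right.1 this.symm)
    have h11 := hγ.1.ne_zero
    rcases smul_eq_zero.1 h10 with h12 | h12
    · omega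
    · exact h11 h12
  have h5 := Subgroup.mem_bot.1 (h4 h3)
  exact commutatorElement_eq_one_iff_mul_comm.1 h5

end Roots

section Rep

variable [IsAlgClosed k] (hk : LocFin k) (r : ℕ) [Fact r.Prime] [CharP k r]

/-- the reflections of the roots of a set are represented in the group it generates -/
theorem exists_rfl_S {S : Set (Fin l → ℤ)} {w : W} {i : Fin l} (h1 : rep cs hp.isCartan w (sr i) ∈ S)
    (h2 : -rep cs hp.isCartan w (sr i) ∈ S) :
    ∃ m ∈ RGD.Sup (XX D l k) S, Rp cs (tow hp cs hk r (k := k)).nsys (rfl' cs w i) m := by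
  have := finite_W hp cs
  have H := tow hp cs hk r (k := k)
  have hXL := XL_eq (k := k) hp hk
  obtain ⟨j⟩ := H.ne
  obtain ⟨m, hm, hm'⟩ := Cfsg.Agent.BpExc.TorCent.exists_rfl (H.rgd j) w i
  set a := rep cs hp.isCartan w (sr i) with ha
  have har : IsRoot cs hp.isCartan a := ⟨w, i, rfl⟩
  have h3 : (Xj hp j a ⊔ Xj hp j (-a)) ≤ RGD.Sup (XX D l k) S := by
    rw [← hXL]
    exact sup_le ((le_XL j a).trans (RGD.le_Sup h1)) ((le_XL j _).trans (RGD.le_Sup h2))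
  have hTn : Tj hp j ≤ Subgroup.normalizer ((Xj hp j a ⊔ Xj hp j (-a) : Subgroup ↥(D.group k)) : Set ↥(D.group k)) := by
    intro s hs
    rw [mem_normalizer_iff_cj, cj_sup, (H.rgd j).tor a har s hs, (H.rgd j).tor (-a) har.neg s hs]
  have h4 : m ∈ ((Tj hp j ⊔ (Xj hp j a ⊔ Xj hp j (-a)) : Subgroup ↥(D.group k)) : Set ↥(D.group k)) := hm
  rw [Subgroup.coe_mul_of_left_le_normalizer_right _ _ hTn, Set.mem_mul] at h4
  obtain ⟨s, hs, u, hu, e⟩ := h4
  refine ⟨u, h3 hu, H.rp_up (j := j) ?_⟩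
  have h5 := (rp_of_mem (cs := cs) (hN := (H.rgd j).nsys) (inv_mem hs)).mul hm'
  rw [one_mul] at h5
  have h6 : s⁻¹ * m = u := by rw [← e]; group
  rwa [h6] at h5

/-- **Elements of `W` fixing `θ`.** -/
theorem exists_rp_fix {w : W} (hw : rep cs hp.isCartan w (th D l) = th D l) :
    ∃ m ∈ RGD.Sup (XX D l k) (SJ h hp cs), Rp cs (tow hp cs hk r (k := k)).nsys w m := by
  have := finite_W hp cs
  have H := tow hp cs hk r (k := k)
  have hθ := th_root h hp cs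
  let V : Subgroup W :=
    { carrier := {v | (∃ m ∈ RGD.Sup (XX D l k) (SJ h hp cs), Rp cs (tow hp cs hk r (k := k)).nsys v m) ∧
        rep cs hp.isCartan v (th D l) = th D l}
      one_mem' := ⟨⟨1, one_mem _, rp_one⟩, by rw [map_one, Module.End.one_apply]⟩
      mul_mem' := by
        rintro a b ⟨⟨m, hm, hm'⟩, ha⟩ ⟨⟨m', hm1, hm2⟩, hb⟩
        exact ⟨⟨m * m', mul_mem hm hm1, hm'.mul hm2⟩, by rw [rep_mul_apply, hb, ha]⟩
      inv_mem' := by
        rintro a ⟨⟨m, hm, hm'⟩, ha⟩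
        refine ⟨⟨m⁻¹, inv_mem hm, hm'.inv⟩, ?_⟩
        conv_lhs => rw [← ha]
        rw [← rep_mul_apply, inv_mul_cancel, map_one, Module.End.one_apply] }
  have hcpr : ∀ a, IsRoot cs hp.isCartan a → a (nd h hp) = 0 → cpr cs hp.isCartan (th D l) a = 0 := by
    intro a ha h0
    rw [cpr_zero_comm cs hp.isCartan hθ ha, cpr_th h hp cs, h0]
  obtain ⟨v, hvV, hv⟩ := Cfsg.Agent.BpExc.Fr.exists_adjust (cs := cs) (h := hp.isCartan) (SJ h hp cs) V
    (fun a ha => by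
      obtain ⟨u, i, e⟩ := ha.1
      have hneg : -a ∈ SJ h hp cs := ⟨ha.1.neg, by rw [Pi.neg_apply, ha.2]; rfl⟩
      refine ⟨u, i, e, ?_, ?_⟩
      · exact exists_rfl_S hp cs hk r (by rw [← e]; exact ha) (by rw [← e]; exact hneg)
      · rw [rep_rfl'_eq, ← e, hcpr a ha.1 ha.2, zero_smul, sub_zero])
    (repAut cs hp.isCartan w) (fun a ha => ha.act w)
  have h1 : w * v = 1 := by
    by_contra hne
    obtain ⟨i, hi⟩ := FamCent.exists_nonpos (cs := cs) (h := hp.isCartan) hne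
    have hir := isRoot_sr cs hp.isCartan i
    have hwv : rep cs hp.isCartan (w * v) (th D l) = th D l := by rw [rep_mul_apply, hvV.2, hw]
    have hnd : rep cs hp.isCartan (w * v) (sr i) (nd h hp) = (sr i : Fin l → ℤ) (nd h hp) := by
      have h1 := cpr_rep cs hp.isCartan (w * v) (sr i) hθ
      rw [hwv, cpr_th h hp cs, cpr_th h hp cs] at h1
      exact h1
    have hneg : ¬ 0 ≤ rep cs hp.isCartan (w * v) (sr i) := fun h2 =>
      (hir.act (w * v)).not_pos_neg h2 hi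
    by_cases hin : i = nd h hp
    · have h2 := hi (nd h hp)
      rw [hnd, hin, sr_self] at h2
      have h3 : (1 : ℤ) ≤ 0 := h2
      omega
    · apply hneg
      have h2 := hv (sr i) ⟨hir, sr_ne (Ne.symm hin)⟩ (fun j => by
        by_cases hj : j = i
        · rw [hj, sr_self]; exact zero_le_one
        · rw [sr_ne hj]; exact le_rfl)
      rw [repAut_apply, ← rep_mul_apply] at h2
      exact h2
  have h2 : w = v⁻¹ := eq_inv_of_mul_eq_one_left h1
  rw [h2]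
  exact (inv_mem hvV).1

end Rep

section Main

variable [IsAlgClosed k] (hk : LocFin k) {r e : ℕ} [Fact r.Prime] [CharP k r] (he : 0 < e)
  (hZ : Subgroup.center ↥(D.group k) = ⊥) {σ : MulAut ↥(D.group k)} (hσ : IsFrob r e σ)

include h hk he hZ hσ in
/-- **The conjugation.** -/
theorem conj_th {g : (Fin l → ℤ) ≃+ (Fin l → ℤ)} (Fσ : Fr cs hp.isCartan (TT D k) (XX D l k) σ g)
    (hgθ : g (th D l) = th D l) {z k₁ : ↥(D.group k)} (hk₁ : z⁻¹ * σ z = k₁) {g₁ : (Fin l → ℤ) ≃+ (Fin l → ℤ)}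
    (F₁ : Fr cs hp.isCartan (TT D k) (XX D l k) (MulAut.conj k₁ * σ) g₁) {a : Fin l → ℤ} (ha : a ∈ LL cs hp)
    (hga : g₁ a = a) :
    ∃ y : ↥(D.group k), σ y = y ∧ (∀ u ∈ XX D l k (th D l), z⁻¹ * (y * u * y⁻¹) * z ∈ XX D l k a) ∧
      ∀ u ∈ XX D l k (-th D l), z⁻¹ * (y * u * y⁻¹) * z ∈ XX D l k (-a) := by
  have := finite_W hp cs
  have H := tow hp cs hk r (k := k)
  have hTL := TL_eq (k := k) hp hk
  have hXL := XL_eq (k := k) hp hk
  have hθ := th_root h hp cs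
  obtain ⟨w₁, rfl⟩ := ha
  obtain ⟨n, -, hn⟩ := H.exists_rp w₁
  have Fn := Fr.conj H hn
  rw [hTL, hXL] at Fn
  set k₂ : ↥(D.group k) := n⁻¹ * k₁ * σ n with hk₂
  have F₂ := Fn.inv.mul (F₁.mul Fn)
  have e1 : (MulAut.conj n)⁻¹ * (MulAut.conj k₁ * σ * MulAut.conj n) = MulAut.conj k₂ * σ := by
    refine MulEquiv.ext fun y => ?_
    show n⁻¹ * (k₁ * σ (n * y * n⁻¹) * k₁⁻¹) * n⁻¹⁻¹ = k₂ * σ y * k₂⁻¹
    rw [hk₂, map_mul, map_mul, map_inv]
    group
  rw [e1] at F₂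
  obtain ⟨w₂, hw₂, hw₂a⟩ := rep_of_fr hp cs hk r Fσ F₂
  have hfix : rep cs hp.isCartan w₂ (th D l) = th D l := by
    have h1 := hw₂a _ hθ
    rw [hgθ] at h1
    rw [← h1]
    show (repAut cs hp.isCartan w₁).symm (g₁ (rep cs hp.isCartan w₁ (th D l))) = th D l
    rw [hga]
    exact (repAut cs hp.isCartan w₁).symm_apply_apply _
  obtain ⟨m, hm, hmw⟩ := exists_rp_fix h hp cs hk r hfix
  have ht : k₂ * m⁻¹ ∈ TT D k := by
    have h1 := hw₂.inv.unique hmw.inv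
    rw [inv_inv, hTL] at h1
    exact h1
  obtain ⟨u, hu, hus⟩ := torus_lang hp cs hk hZ he hσ Fσ ht
  have hSr : ∀ a ∈ SJ h hp cs, IsRoot cs hp.isCartan a := fun a ha => ha.1
  have hσu : σ u ∈ TT D k := (Fσ.tor u).2 hu
  have hm' : σ u * m * (σ u)⁻¹ ∈ RGD.Sup (XX D l k) (SJ h hp cs) := by
    have h1 := H.T_le_normalizer hSr
    rw [hTL, hXL] at h1
    exact (Subgroup.mem_normalizer_iff.1 (h1 hσu) m).1 hm
  obtain ⟨y₂, hy₂, hy₂m⟩ := lang_fr hp cs he hσ Fσ hSr (fun a ha => by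
    refine ⟨(Fσ.root a).2 ha.1, ?_⟩
    have h1 := cpr_g Fσ.root ha.1 hθ
    rw [hgθ, cpr_th h hp cs, cpr_th h hp cs, ha.2] at h1
    exact h1) hm'
  set y₀ : ↥(D.group k) := y₂ * u with hy₀
  have hy₀k : σ y₀ = y₀ * k₂ := by
    have h1 : k₂ = u⁻¹ * σ u * m := by rw [← hus]; group
    have h2 : σ y₂ = y₂ * (σ u * m * (σ u)⁻¹) := by rw [hy₂m]; group
    rw [hy₀, map_mul, h2, h1]
    group
  have hσz : σ z = z * k₁ := by rw [← hk₁]; group
  refine ⟨z * n * y₀⁻¹, ?_, ?_⟩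
  · rw [map_mul, map_mul, map_inv, hσz, hy₀k]
    have h1 : k₁ * σ n = n * k₂ := by rw [hk₂]; group
    calc z * k₁ * σ n * (y₀ * k₂)⁻¹ = z * (k₁ * σ n) * (y₀ * k₂)⁻¹ := by group
      _ = _ := by rw [h1]; group
  · -- the conjugation of the root groups
    have key : ∀ β, (β = th D l ∨ β = -th D l) → ∀ v ∈ XX D l k β,
        z⁻¹ * (z * n * y₀⁻¹ * v * (z * n * y₀⁻¹)⁻¹) * z ∈ XX D l k (rep cs hp.isCartan w₁ β) := by
      intro β hβ v hv
      have hβr : IsRoot cs hp.isCartan β := by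
        rcases hβ with rfl | rfl
        · exact hθ
        · exact hθ.neg
      have h1 : ∀ y ∈ RGD.Sup (XX D l k) (SJ h hp cs), y * v = v * y := by
        have h2 : RGD.Sup (XX D l k) (SJ h hp cs) ≤ Subgroup.centralizer {v} := by
          refine RGD.Sup_le fun γ hγ => ?_
          intro y hy
          rw [Subgroup.mem_centralizer_singleton_iff]
          exact comm_of_nd h hp cs hγ hβ hy hv
        intro y hy
        have := h2 hy
        rwa [Subgroup.mem_centralizer_singleton_iff] at this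
      have h2 : y₀⁻¹ * v * y₀ = u⁻¹ * v * u := by
        have h3 : y₂⁻¹ * v * y₂ = v := by
          rw [mul_assoc, ← h1 y₂ hy₂]; group
        rw [hy₀]
        calc (y₂ * u)⁻¹ * v * (y₂ * u) = u⁻¹ * (y₂⁻¹ * v * y₂) * u := by group
          _ = _ := by rw [h3]
      have h3 : u⁻¹ * v * u ∈ XX D l k β := by
        have h4 := H.cj_T (t := u⁻¹) (by rw [hTL]; exact inv_mem hu) hβr
        rw [hXL] at h4
        rw [← h4]
        have h5 : u⁻¹ * v * u = u⁻¹ * v * u⁻¹⁻¹ := by rw [inv_inv]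
        rw [h5]
        exact conj_mem_cj.2 hv
      have h4 : z⁻¹ * (z * n * y₀⁻¹ * v * (z * n * y₀⁻¹)⁻¹) * z = n * (y₀⁻¹ * v * y₀) * n⁻¹ := by group
      rw [h4, h2]
      exact (Fn.map β hβr _).2 h3
    refine ⟨fun v hv => key _ (Or.inl rfl) v hv, fun v hv => ?_⟩
    have h1 := key _ (Or.inr rfl) v hv
    rwa [map_neg] at h1

end Main

end Cfsg.Agent.H225.Gen
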