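import Cfsg.Agent.BpExc.Pair

/-!
# The pair reduction for families (S2187, helper225)

The results of `BpExc.Fr`, `BpExc.Pair` for a finite family `t : ι → Y` of torus elements instead of one element.

* `SF t` : the roots trivial on all `t i`; `MF t` : the group generated by their root groups;
* `exists_formF` : `c s_i = t_i c` for all `i`: `c = m k`, `m ∈ MF t`, `k ∈ N`, `k s_i = t_i k`;
* `frame` : `σ x_i = x_i`, `z⁻¹ x_i z = t_i ∈ T`: after changing `z` the automorphism `conj (z⁻¹ σ z) σ` is a frame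
  automorphism fixing the `t_i`;
* `adjust` : for a family with more roots we can make it preserve the positive roots of `SF`.
-/

set_option autoImplicit false
set_option linter.unusedSectionVars false

namespace Cfsg.Agent.H225.Gen

open CoxeterSystem Cfsg.Agent.ChevalleyStructure.CoxeterGeom Cfsg.Agent.Tits.Roots Cfsg.Agent.Tits.Core
  Cfsg.Agent.Tits.RootComb Cfsg.Agent.Tits.Exchange Cfsg.Agent.Nodes.Reps Cfsg.Agent.Nodes.BNOf
  Cfsg.Agent.Nodes.StabComb Cfsg.Agent.Nodes.Bruhat Cfsg.Agent.Nodes.OppDec Cfsg.Agent.Nodes.LeviDec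
  Cfsg.Agent.Nodes.NormalForm Cfsg.Agent.Nodes.SubComb Cfsg.Agent.Nodes.Coroot Cfsg.Agent.KFacts.RgdField
  Cfsg.Agent.BpExc.TorCent Cfsg.Agent.BpExc.Tow Cfsg.Agent.BpExc.Fr Cfsg.Agent.BpExc.Pair
open scoped commutatorElement

variable {I W Y : Type*} [Fintype I] [DecidableEq I] [Group W] [Group Y] {M : CoxeterMatrix I}
  {cs : CoxeterSystem M W} {A : I → I → ℤ} {h : IsCartan M A} {p : ℕ}
  {J : Type*} [Preorder J] {T : J → Subgroup Y} {n : I → Y} {X : J → (I → ℤ) → Subgroup Y}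
  (H : Tow cs h p T n X) {F : Type*} [Field F] {xx : (I → ℤ) → F → Y} {χ : (I → ℤ) → Y → F}
  (C : Coords cs h (TL T) n (XL X) xx χ) {ι : Type*} [Finite ι]

/-- the roots trivial on all `t i` -/
def SF (cs : CoxeterSystem M W) (h : IsCartan M A) (χ : (I → ℤ) → Y → F) {ι : Type*} (t : ι → Y) : Set (I → ℤ) :=
  {a | IsRoot cs h a ∧ ∀ i, χ a (t i) = 1}

/-- the group generated by the root groups centralised by all `t i` -/
def MF (cs : CoxeterSystem M W) (h : IsCartan M A) (X : (I → ℤ) → Subgroup Y) (χ : (I → ℤ) → Y → F)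
    {ι : Type*} (t : ι → Y) : Subgroup Y := RGD.Sup X (SF cs h χ t)

theorem SF_neg (hA : ChAdd cs h (TL T) χ) {t : ι → Y} (ht : ∀ i, t i ∈ TL T) {a : I → ℤ}
    (ha : a ∈ SF cs h χ t) : -a ∈ SF cs h χ t := by
  refine ⟨ha.1.neg, fun i => ?_⟩
  obtain ⟨φ, h0, hadd, hφ⟩ := hA _ (ht i)
  have h1 := hadd a (-a)
  rw [add_neg_cancel, h0, ← hφ a ha.1, ha.2 i, one_mul, ← hφ _ ha.1.neg] at h1
  exact h1.symm

/-- `SF` is closed -/
theorem SF_closed (hA : ChAdd cs h (TL T) χ) {t : ι → Y} (ht : ∀ i, t i ∈ TL T) {a b : I → ℤ}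
    (ha : a ∈ SF cs h χ t) (hb : b ∈ SF cs h χ t) (x y : ℤ) (hr : IsRoot cs h (x • a + y • b)) :
    x • a + y • b ∈ SF cs h χ t := by
  refine ⟨hr, fun i => ?_⟩
  obtain ⟨φ, h0, hadd, hφ⟩ := hA _ (ht i)
  have hne : ∀ v, φ v ≠ 0 := fun v h1 => by
    have h2 := hadd v (-v)
    rw [add_neg_cancel, h0, h1, zero_mul] at h2
    exact one_ne_zero h2
  have hone : ∀ v : I → ℤ, φ v = 1 → ∀ x : ℤ, φ (x • v) = 1 := by
    intro v hv x
    have hneg : φ (-v) = 1 := by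
      have h2 := hadd v (-v)
      rw [add_neg_cancel, h0, hv, one_mul] at h2
      exact h2.symm
    have hn : ∀ m : ℕ, φ (m • v) = 1 ∧ φ (m • (-v)) = 1 := by
      intro m
      induction m with
      | zero => rw [zero_smul, zero_smul]; exact ⟨h0, h0⟩
      | succ m ih => rw [succ_nsmul, succ_nsmul, hadd, hadd, ih.1, ih.2, hv, hneg, one_mul]; exact ⟨rfl, rfl⟩
    rcases Int.eq_nat_or_neg x with ⟨m, rfl | rfl⟩
    · rw [natCast_zsmul]; exact (hn m).1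
    · rw [neg_smul, natCast_zsmul, ← smul_neg]; exact (hn m).2
  rw [hφ _ hr, hadd, hone a (by rw [← hφ a ha.1]; exact ha.2 i), hone b (by rw [← hφ b hb.1]; exact hb.2 i), one_mul]

include C

theorem MF_comm {t : ι → Y} (ht : ∀ i, t i ∈ TL T) {y : Y} (hy : y ∈ MF cs h (XL X) χ t) (i : ι) :
    y * t i = t i * y := by
  have h1 : y ∈ MM cs h (XL X) χ (t i) :=
    RGD.Sup_mono (X := XL X) (S := SF cs h χ t) (S' := Sx cs h χ (t i)) (fun a ha => ⟨ha.1, ha.2 i⟩) hy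
  have h2 := MM_le_centralizer C (ht i) h1
  rwa [Subgroup.mem_centralizer_singleton_iff] at h2

/-- a frame automorphism fixing the `t i` preserves `SF` -/
theorem Fr_mem_SF {σ : MulAut Y} {g : (I → ℤ) ≃+ (I → ℤ)} (Fσ : Fr cs h (TL T) (XL X) σ g) {t : ι → Y}
    (ht : ∀ i, t i ∈ TL T) (hσt : ∀ i, σ (t i) = t i) (a : I → ℤ) : g a ∈ SF cs h χ t ↔ a ∈ SF cs h χ t := by
  constructor
  · rintro ⟨h1, h2⟩
    refine ⟨(Fσ.root a).1 h1, fun i => ?_⟩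
    exact ((Fσ.mem_Sx C (ht i) (hσt i) a).1 ⟨h1, h2 i⟩).2
  · rintro ⟨h1, h2⟩
    refine ⟨(Fσ.root a).2 h1, fun i => ?_⟩
    exact ((Fσ.mem_Sx C (ht i) (hσt i) a).2 ⟨h1, h2 i⟩).2

theorem Fr_mem_MF {σ : MulAut Y} {g : (I → ℤ) ≃+ (I → ℤ)} (Fσ : Fr cs h (TL T) (XL X) σ g) {t : ι → Y}
    (ht : ∀ i, t i ∈ TL T) (hσt : ∀ i, σ (t i) = t i) (y : Y) :
    σ y ∈ MF cs h (XL X) χ t ↔ y ∈ MF cs h (XL X) χ t :=
  Fσ.mem_Sup (fun _ ha => ha.1) (Fr_mem_SF C Fσ ht hσt) y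

include H

/-- **Families of torus elements conjugate in `Y` are conjugate in `N`.** -/
theorem exists_formF [Finite W] {s t : ι → Y} (hs : ∀ i, s i ∈ TL T) (ht : ∀ i, t i ∈ TL T) {c : Y}
    (hc : c ∈ GG cs h (TL T) (XL X)) (e : ∀ i, c * s i = t i * c) :
    ∃ m ∈ MF cs h (XL X) χ t, ∃ w k, Rp cs H.nsys w k ∧ (∀ i, k * s i = t i * k) ∧ c = m * k := by
  obtain ⟨j1, h1⟩ := H.exists_level (S := fun j => (T j : Set Y)) (fun _ _ hab => H.monoT hab)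
    (f := s) (fun a => H.mem_TL.1 (hs a))
  obtain ⟨j2, h2⟩ := H.exists_level (S := fun j => (T j : Set Y)) (fun _ _ hab => H.monoT hab)
    (f := t) (fun a => H.mem_TL.1 (ht a))
  obtain ⟨j3, h3⟩ := H.mem_GG.1 hc
  obtain ⟨j4, a1, a2⟩ := H.dir j1 j2
  obtain ⟨j, b1, b2⟩ := H.dir j3 j4
  have h1' : ∀ i, s i ∈ T j := fun i => H.monoT (a1.trans b2) (h1 i)
  have h2' : ∀ i, t i ∈ T j := fun i => H.monoT (a2.trans b2) (h2 i)
  obtain ⟨w, hw⟩ := (Cfsg.Agent.Nodes.Bruhat.mem_GG (H.rgd j)).1 (H.mono_GG b1 h3)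
  obtain ⟨u, hu, k, hk, v, hv, rfl⟩ := Cfsg.Agent.Nodes.NormalForm.exists_normal_form (H.rgd j) hw
  have key := fun i => conj_form' (H.rgd j) (h1' i) (h2' i) hu hk hv (e i)
  have hv' : v ∈ RGD.Sup (X j) (RGD.Pos cs h) :=
    RGD.Sup_mono (S := NW cs h w) (S' := RGD.Pos cs h) (fun x hx => ⟨hx.1, hx.2.1⟩) hv
  have hle : ∀ {t : ι → Y}, (∀ i, t i ∈ T j) → ∀ u ∈ RGD.Sup (X j) (RGD.Pos cs h), (∀ i, u * t i = t i * u) →
      u ∈ MF cs h (XL X) χ t := by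
    intro t ht u hu huc
    have hsub : Set.range t ⊆ T j := by
      rintro _ ⟨i, rfl⟩
      exact ht i
    have h4 : u ∈ RGD.Sup (fun x => X j x ⊓ Subgroup.centralizer (Set.range t)) (RGD.Pos cs h) := by
      rw [← centralizer_U (H.rgd j) hsub]
      refine ⟨hu, Subgroup.mem_centralizer_iff.2 ?_⟩
      rintro _ ⟨i, rfl⟩
      exact (huc i).symm
    have h5 : RGD.Sup (fun x => X j x ⊓ Subgroup.centralizer (Set.range t)) (RGD.Pos cs h) ≤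
        MF cs h (XL X) χ t := by
      refine RGD.Sup_le fun a ha => ?_
      rintro y ⟨hy, hyc⟩
      by_cases h6 : y = 1
      · rw [h6]; exact one_mem _
      · refine RGD.le_Sup (X := XL X) (S := SF cs h χ t) ⟨ha.1, fun i => ?_⟩ (le_XL j a hy)
        have h7 : a ∈ Sx cs h χ (t i) := by
          refine mem_Sx_of_centralizer C (le_TL j (ht i)) ha.1 (le_XL j a hy) h6 ?_
          rw [Subgroup.mem_centralizer_singleton_iff]
          exact (Subgroup.mem_centralizer_iff.1 hyc _ ⟨i, rfl⟩).symm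
        exact h7.2
    exact h5 h4
  have hkL := H.rp_up hk
  have hks : ∀ i, k * s i = t i * k := fun i => (key i).2.1
  have hkk : ∀ i, k * s i * k⁻¹ = t i := fun i => by rw [hks]; group
  refine ⟨u * (k * v * k⁻¹), mul_mem (hle h2' u hu fun i => (key i).1.symm) ?_, w, k, hkL, hks, by group⟩
  have h4 : v ∈ MF cs h (XL X) χ s := hle h1' v hv' fun i => (key i).2.2.symm
  have h5 : MF cs h (XL X) χ s ≤ (MF cs h (XL X) χ t).comap (MulAut.conj k).toMonoidHom := by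
    refine RGD.Sup_le fun a ha => ?_
    intro y hy
    have h6 : rep cs h w a ∈ SF cs h χ t := by
      refine ⟨ha.1.act w, fun i => ?_⟩
      have h7 := C.chi_rp H.nsys hkL ha.1 (hs i)
      rw [hkk] at h7
      rw [h7]; exact ha.2 i
    have h8 : k * y * k⁻¹ ∈ XL X (rep cs h w a) := by
      rw [← H.conj_rp hkL ha.1]
      exact conj_mem_cj.2 hy
    exact RGD.le_Sup h6 h8
  exact h5 h4

/-- **The frame.** -/
theorem frame [Finite W] (hG : GG cs h (TL T) (XL X) = ⊤) {σ : MulAut Y}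
    {g : (I → ℤ) ≃+ (I → ℤ)} (Fσ : Fr cs h (TL T) (XL X) σ g) {x t : ι → Y} {z : Y} (hσx : ∀ i, σ (x i) = x i)
    (hz : ∀ i, z⁻¹ * x i * z = t i) (ht : ∀ i, t i ∈ TL T)
    (hL : ∀ (k : Y) (g' : (I → ℤ) ≃+ (I → ℤ)), Fr cs h (TL T) (XL X) (MulAut.conj k * σ) g' →
      (∀ i, (MulAut.conj k * σ) (t i) = t i) → ∀ m ∈ MF cs h (XL X) χ t, ∃ y ∈ MF cs h (XL X) χ t,
      m = y⁻¹ * (MulAut.conj k * σ) y) :
    ∃ (z' k : Y) (w : W), z⁻¹ * z' ∈ MF cs h (XL X) χ t ∧ (∀ i, z'⁻¹ * x i * z' = t i) ∧ z'⁻¹ * σ z' = k ∧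
      Rp cs H.nsys w k ∧ Fr cs h (TL T) (XL X) (MulAut.conj k * σ) (g.trans (repAut cs h w)) ∧
      ∀ i, (MulAut.conj k * σ) (t i) = t i := by
  have e1 : ∀ i, z⁻¹ * σ z * σ (t i) = t i * (z⁻¹ * σ z) := by
    intro i
    have h1 : σ (t i) = (σ z)⁻¹ * x i * σ z := by rw [← hz, map_mul, map_mul, map_inv, hσx]
    rw [h1, ← hz]; group
  obtain ⟨m, hm, w, k, hk, hkt, hc⟩ := exists_formF H C (fun i => (Fσ.tor _).2 (ht i)) ht
    (c := z⁻¹ * σ z) (by rw [hG]; exact Subgroup.mem_top _) e1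
  have F0 := (Fr.conj H hk).mul Fσ
  have ht0 : ∀ i, (MulAut.conj k * σ) (t i) = t i := by
    intro i
    show k * σ (t i) * k⁻¹ = t i
    rw [hkt]; group
  obtain ⟨y, hy, ey⟩ := hL _ _ F0 ht0 _ hm
  have hyt := fun i => MF_comm C ht hy i
  refine ⟨z * y⁻¹, k, w, ?_, fun i => ?_, ?_, hk, F0, ht0⟩
  · have e : z⁻¹ * (z * y⁻¹) = y⁻¹ := by group
    rw [e]; exact inv_mem hy
  · calc (z * y⁻¹)⁻¹ * x i * (z * y⁻¹) = y * (z⁻¹ * x i * z) * y⁻¹ := by group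
      _ = t i := by rw [hz, hyt]; group
  · have h3 : z⁻¹ * σ z = y⁻¹ * k * σ y := by
      rw [hc, ey]
      show y⁻¹ * (k * σ y * k⁻¹) * k = _
      group
    rw [map_mul, map_inv]
    calc (z * y⁻¹)⁻¹ * (σ z * (σ y)⁻¹) = y * (z⁻¹ * σ z) * (σ y)⁻¹ := by group
      _ = k := by rw [h3]; group

/-- the reflections of the roots of `SF t` are represented in `MF t` -/
theorem exists_rfl_MF [Finite W] (hA : ChAdd cs h (TL T) χ) {t : ι → Y} (ht : ∀ i, t i ∈ TL T) {a : I → ℤ}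
    (ha : a ∈ SF cs h χ t) : ∃ w i, a = rep cs h w (sr i) ∧ ∃ m ∈ MF cs h (XL X) χ t, Rp cs H.nsys (rfl' cs w i) m := by
  obtain ⟨⟨w, i, hw⟩, h2⟩ := id ha
  refine ⟨w, i, hw, ?_⟩
  obtain ⟨j⟩ := H.ne
  obtain ⟨m, hm, hm'⟩ := Cfsg.Agent.BpExc.TorCent.exists_rfl (H.rgd j) w i
  rw [← hw] at hm
  have hneg := SF_neg hA ht ha
  have h3 : (X j a ⊔ X j (-a)) ≤ MF cs h (XL X) χ t :=
    sup_le ((le_XL j a).trans (RGD.le_Sup ha)) ((le_XL j _).trans (RGD.le_Sup hneg))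
  have hTn : T j ≤ Subgroup.normalizer ((X j a ⊔ X j (-a) : Subgroup Y) : Set Y) := by
    intro s hs
    rw [mem_normalizer_iff_cj, cj_sup, (H.rgd j).tor a ha.1 s hs, (H.rgd j).tor (-a) ha.1.neg s hs]
  have h4 : m ∈ ((T j ⊔ (X j a ⊔ X j (-a)) : Subgroup Y) : Set Y) := hm
  rw [Subgroup.coe_mul_of_left_le_normalizer_right _ _ hTn, Set.mem_mul] at h4
  obtain ⟨s, hs, u, hu, e⟩ := h4
  refine ⟨u, h3 hu, H.rp_up (j := j) ?_⟩
  have h5 := (rp_of_mem (cs := cs) (hN := (H.rgd j).nsys) (inv_mem hs)).mul hm'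
  rw [one_mul] at h5
  have h6 : s⁻¹ * m = u := by rw [← e]; group
  rwa [h6] at h5

/-- **The adjustment.** -/
theorem adjust [Finite W] (hA : ChAdd cs h (TL T) χ) {σ : MulAut Y} {x t : ι → Y} {z k : Y}
    {g : (I → ℤ) ≃+ (I → ℤ)} (hz : ∀ i, z⁻¹ * x i * z = t i) (ht : ∀ i, t i ∈ TL T) (hk : z⁻¹ * σ z = k)
    (F0 : Fr cs h (TL T) (XL X) (MulAut.conj k * σ) g) (ht0 : ∀ i, (MulAut.conj k * σ) (t i) = t i)
    (hL : ∀ (k : Y) (g' : (I → ℤ) ≃+ (I → ℤ)), Fr cs h (TL T) (XL X) (MulAut.conj k * σ) g' →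
      (∀ i, (MulAut.conj k * σ) (t i) = t i) → ∀ m ∈ MF cs h (XL X) χ t, ∃ y ∈ MF cs h (XL X) χ t,
      m = y⁻¹ * (MulAut.conj k * σ) y) :
    ∃ (z' k' : Y) (v : W), z⁻¹ * z' ∈ MF cs h (XL X) χ t ∧ (∀ i, z'⁻¹ * x i * z' = t i) ∧ z'⁻¹ * σ z' = k' ∧
      Fr cs h (TL T) (XL X) (MulAut.conj k' * σ) ((repAut cs h v).trans g) ∧
      (∀ i, (MulAut.conj k' * σ) (t i) = t i) ∧
      v ∈ Subgroup.closure {r | ∃ w i, rep cs h w (sr i) ∈ SF cs h χ t ∧ r = rfl' cs w i} ∧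
      ∀ a ∈ SF cs h χ t, 0 ≤ a → 0 ≤ g (rep cs h v a) := by
  let V₀ : Subgroup W := Subgroup.closure {r | ∃ w i, rep cs h w (sr i) ∈ SF cs h χ t ∧ r = rfl' cs w i}
  let V : Subgroup W :=
    { carrier := {v | ∃ m ∈ MF cs h (XL X) χ t, Rp cs H.nsys v m}
      one_mem' := ⟨1, one_mem _, rp_one⟩
      mul_mem' := by
        rintro a b ⟨m, hm, hm'⟩ ⟨m', hm1, hm2⟩
        exact ⟨m * m', mul_mem hm hm1, hm'.mul hm2⟩
      inv_mem' := by
        rintro a ⟨m, hm, hm'⟩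
        exact ⟨m⁻¹, inv_mem hm, hm'.inv⟩ }
  obtain ⟨v, ⟨⟨m₁, hm₁, hv⟩, hv0⟩, hpos⟩ := Cfsg.Agent.BpExc.Fr.exists_adjust (cs := cs) (h := h) (SF cs h χ t) (V ⊓ V₀)
    (fun a ha => by
      obtain ⟨w, i, e, h1⟩ := exists_rfl_MF H C hA ht ha
      exact ⟨w, i, e, h1, Subgroup.subset_closure ⟨w, i, e ▸ ha, rfl⟩⟩) g (fun a ha => (F0.root a).2 ha)
  have hm₁t := fun i => MF_comm C ht hm₁ i
  have F1 := F0.mul (Fr.conj H hv)
  have e2 : MulAut.conj k * σ * MulAut.conj m₁ = MulAut.conj (k * σ m₁) * σ := by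
    ext y
    show k * σ (m₁ * y * m₁⁻¹) * k⁻¹ = k * σ m₁ * σ y * (k * σ m₁)⁻¹
    rw [map_mul, map_mul, map_inv]; group
  rw [e2] at F1
  have ht1 : ∀ i, (MulAut.conj (k * σ m₁) * σ) (t i) = t i := by
    intro i
    rw [← e2]
    show (MulAut.conj k * σ) (m₁ * t i * m₁⁻¹) = t i
    rw [hm₁t, mul_inv_cancel_right, ht0]
  have hm' : ((MulAut.conj k * σ) m₁)⁻¹ ∈ MF cs h (XL X) χ t :=
    inv_mem ((Fr_mem_MF C F0 ht ht0 m₁).2 hm₁)
  obtain ⟨y, hy, ey⟩ := hL _ _ F1 ht1 _ hm'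
  have hyt := fun i => MF_comm C ht hy i
  refine ⟨z * y⁻¹, k * σ m₁, v, ?_, fun i => ?_, ?_, F1, ht1, hv0, hpos⟩
  · have e : z⁻¹ * (z * y⁻¹) = y⁻¹ := by group
    rw [e]; exact inv_mem hy
  · calc (z * y⁻¹)⁻¹ * x i * (z * y⁻¹) = y * (z⁻¹ * x i * z) * y⁻¹ := by group
      _ = t i := by rw [hz, hyt]; group
  · have h3 : k = y⁻¹ * (k * σ m₁) * σ y := by
      have h5 : (k * σ m₁ * k⁻¹)⁻¹ = y⁻¹ * (k * σ m₁ * σ y * (k * σ m₁)⁻¹) := ey
      calc k = (k * σ m₁ * k⁻¹)⁻¹ * (k * σ m₁) := by group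
        _ = _ := by rw [h5]; group
    rw [map_mul, map_inv]
    calc (z * y⁻¹)⁻¹ * (σ z * (σ y)⁻¹) = y * (z⁻¹ * σ z) * (σ y)⁻¹ := by group
      _ = k * σ m₁ := by rw [hk]; nth_rw 1 [h3]; group

end Cfsg.Agent.H225.Gen
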