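import Cfsg.Agent.H225.Gen.Conj
import Cfsg.Agent.H818.StrP.UThm
import Cfsg.Agent.H316.U6Fam
import Cfsg.Agent.S1054
import Cfsg.Agent.S1055

/-!
# Generation by the centralisers of the hyperplanes of a toral group (S2187, helper225)

`m : MData hp r q K₀`, `D` one of `G2, D4, F4, E6, E7, E8`, `E` a finite subgroup of the fixed points of `m.σ` of exponent
`p` conjugate in `D.group (KK r)` to a subgroup of the torus.

* `long_fixed_or`, `long_fixed` : there is a hyperplane `F` of `E` and a fixed point `y` of `m.σ` such that `F` commutes with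
  `X_{± θ}^y`, or the frame automorphism satisfies `g₀ ^ 2 = -1`;
* `gen_of_stab` : `M₀ = K₀` if `M₀` contains a long root group and stabilises only `Y`-stable subspaces;
* `gen_of_long` : `K₀` is generated by the centralisers of the hyperplanes and the long root groups `X_{± θ}^y`;
* `gen_top` : the simple group `K₀` is generated by the centralisers of the hyperplanes of `E`.
-/

set_option autoImplicit false
set_option linter.unusedSectionVars false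
set_option linter.unusedVariables false

namespace Cfsg.Agent.H225.Gen

open CoxeterSystem Cfsg Cfsg.Lie Cfsg.Lie.ChevalleyDatum
open Cfsg.Agent.ChevalleyStructure Cfsg.Agent.ChevalleyStructure.Elts Cfsg.Agent.ChevalleyStructure.CoxeterGeom
  Cfsg.Agent.ChevalleyStructure.CoxeterGeomTypes Cfsg.Agent.ChevalleyStructure.NPerm
  Cfsg.Agent.ChevalleyStructure.XColumns
open Cfsg.Agent.Tits.Roots Cfsg.Agent.Tits.Core Cfsg.Agent.Nodes Cfsg.Agent.Nodes.Reps Cfsg.Agent.Nodes.BNOf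
  Cfsg.Agent.Nodes.RGDChev Cfsg.Agent.Nodes.Bruhat Cfsg.Agent.Nodes.NormalForm Cfsg.Agent.Nodes.StabComb
  Cfsg.Agent.Nodes.Coroot Cfsg.Agent.Nodes.SubComb
open Cfsg.Agent.KFacts.RgdField Cfsg.Agent.KFacts.RgdChevCoord
open Cfsg.Agent.BpExc Cfsg.Agent.BpExc.TorCent Cfsg.Agent.BpExc.TorChev Cfsg.Agent.BpExc.Tow
  Cfsg.Agent.BpExc.TowChev Cfsg.Agent.BpExc.Fr Cfsg.Agent.BpExc.Pair Cfsg.Agent.BpExc.LangFr Cfsg.Agent.GpExc.Field
  Cfsg.Agent.BpExc.NInst Cfsg.Agent.BpExc.NChev Cfsg.Agent.BpExc.Asm Cfsg.Agent.BpExc.CommZ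
open Cfsg.Agent.H818.StrP.UTab Cfsg.Agent.H818.StrP.UAct Cfsg.Agent.H123.ExcComb Cfsg.Agent.H696.GmnToral
open Cfsg.Agent.H469.Exc Cfsg.Agent.H469.Exc.SigFr Cfsg.Agent.H316.U3 Cfsg.Agent.H316.U6
open scoped commutatorElement Matrix

universe u v

section Comb

variable {D : ChevalleyDatum} {l : ℕ} {M : CoxeterMatrix (Fin l)} {W : Type*} [Group W] (h : HiList D)
  (hp : IsType D l M) (cs : CoxeterSystem M W) {g : (Fin l → ℤ) ≃+ (Fin l → ℤ)}
  (hg : ∀ a, IsRoot cs hp.isCartan (g a) ↔ IsRoot cs hp.isCartan a)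

include hg

theorem cpr_g' {x y : Fin l → ℤ} (hy : IsRoot cs hp.isCartan y) :
    cpr cs hp.isCartan (g x) (g y) = cpr cs hp.isCartan x y := by
  have := finite_W hp cs
  have h2 : ell cs hp.isCartan ((hg y).2 hy) (g x) = ell cs hp.isCartan hy x := by
    conv_lhs => rw [eq_sum_sr x, map_sum, map_sum]
    conv_rhs => rw [eq_sum_sr x, map_sum]
    refine Finset.sum_congr rfl fun i _ => ?_
    rw [map_zsmul, map_zsmul, map_zsmul, ell_apply, ell_apply, cpr_g hg (isRoot_sr cs hp.isCartan i) hy]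
  exact h2

include h in
/-- `g² = -1` on the long roots: `g² = -1`. -/
theorem neg_of_LL (h1 : ∀ a ∈ LL cs hp, g (g a) = -a) (x : Fin l → ℤ) : g (g x) = -x := by
  have := finite_W hp cs
  have h2 : g (g x) + x = 0 := by
    refine LL_span h hp cs fun a ha => ?_
    have har := LL_root h hp cs ha
    have h3 := cpr_g' hp cs hg (x := g x) (y := g a) ((hg a).2 har)
    rw [cpr_g' hp cs hg har, h1 a ha, cpr_neg_right cs hp.isCartan _ har] at h3
    rw [cpr_add cs _ _ _ har]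
    omega
  exact eq_neg_of_add_eq_zero_left h2

end Comb

variable {D : ChevalleyDatum} {l : ℕ} {M : CoxeterMatrix (Fin l)} (h : HiList D) (hp : IsType D l M)

section Frames

variable {k : Type u} [Field k] {W : Type v} [Group W] (cs : CoxeterSystem M W)
  [IsAlgClosed k] (hk : LocFin k) {r e : ℕ} [Fact r.Prime] [CharP k r] (he : 0 < e)

/-- `SF t` is closed under reflections -/
theorem SF_rsub (hk : LocFin k) (r : ℕ) [Fact r.Prime] [CharP k r] {ι : Type*} [Finite ι] {t : ι → ↥(D.group k)}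
    (ht : ∀ i, t i ∈ TT D k) : RSub cs hp.isCartan (SF cs hp.isCartan (ch hp) t) := by
  have := finite_W hp cs
  have hTL := TL_eq (k := k) hp hk
  have hA := chAddL (k := k) hp cs hk r
  have hA' : ChAdd cs hp.isCartan (TL (Tj hp (k := k))) (ch (K := k) hp) := by rw [hTL]; exact hA
  have ht' : ∀ i, t i ∈ TL (Tj hp (k := k)) := fun i => by rw [hTL]; exact ht i
  refine ⟨fun a ha => ha.1, fun a ha => SF_neg hA' ht' ha, fun a ha b hb => ?_⟩
  have h1 : a - cpr cs hp.isCartan a b • b = (1 : ℤ) • a + (-cpr cs hp.isCartan a b) • b := by module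
  rw [h1]
  refine SF_closed hA' ht' ha hb _ _ ?_
  rw [← h1]
  exact isRoot_refl cs hp.isCartan ha.1 hb.1

include h hk he in
/-- a connected long root in the family of a subgroup -/
theorem fixed_of_conn (hZ : Subgroup.center ↥(D.group k) = ⊥) {σ : MulAut ↥(D.group k)} (hσ : IsFrob r e σ)
    {g : (Fin l → ℤ) ≃+ (Fin l → ℤ)} (Fσ : Fr cs hp.isCartan (TT D k) (XX D l k) σ g) (hgθ : g (th D l) = th D l)
    {E : Subgroup ↥(D.group k)} [Finite ↥E]
    {z : ↥(D.group k)} (hz : ∀ a ∈ E, z * a * z⁻¹ ∈ TT D k) {z₀ k₀ : ↥(D.group k)} {w : W}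
    (a2 : ∀ i : ↥E, z₀⁻¹ * i.1 * z₀ = z * i.1 * z⁻¹) (a3 : z₀⁻¹ * σ z₀ = k₀)
    (F0 : Fr cs hp.isCartan (TT D k) (XX D l k) (MulAut.conj k₀ * σ) (g.trans (repAut cs hp.isCartan w)))
    (a6 : ∀ i : ↥E, (MulAut.conj k₀ * σ) (z * i.1 * z⁻¹) = z * i.1 * z⁻¹)
    {F : Subgroup ↥(D.group k)} (hF : F ≤ E) {β : Fin l → ℤ}
    (hβ : β ∈ SF cs hp.isCartan (ch hp) (fun i : ↥F => z * i.1 * z⁻¹)) (hβL : β ∈ LL cs hp)
    (hβg : Conn cs hp.isCartan (SF cs hp.isCartan (ch hp) (fun i : ↥F => z * i.1 * z⁻¹))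
      (rep cs hp.isCartan w (g β)) β) :
    ∃ y : ↥(D.group k), σ y = y ∧
      ∀ u, (u ∈ XX D l k (th D l) ∨ u ∈ XX D l k (-th D l)) → ∀ x ∈ F, y * u * y⁻¹ * x = x * (y * u * y⁻¹) := by
  have := finite_W hp cs
  have H := tow (k := k) hp cs hk r
  have hTL := TL_eq (k := k) hp hk
  have hXL := XL_eq (k := k) hp hk
  have C := coordsL (k := k) hp cs hk r
  have C' : Coords cs hp.isCartan (TL (Tj hp (k := k))) (nc hp k) (XL (Xj hp (k := k))) (xc hp) (ch hp) := by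
    rw [hTL, hXL]; exact C
  set g₀ : (Fin l → ℤ) ≃+ (Fin l → ℤ) := g.trans (repAut cs hp.isCartan w) with hg₀
  have hg₀a : ∀ a, g₀ a = rep cs hp.isCartan w (g a) := fun a => rfl
  have hg₀θ : g₀ (th D l) ∈ LL cs hp := ⟨w, by rw [hg₀a, hgθ]⟩
  have hg₀L : ∀ a ∈ LL cs hp, g₀ a ∈ LL cs hp := fun a ha => LL_g h hp cs F0.root hg₀θ ha
  have : Finite ↥F := Finite.of_injective _ (Subgroup.inclusion_injective hF)
  have hSF : ∀ a, g₀ a ∈ SF cs hp.isCartan (ch hp) (fun i : ↥F => z * i.1 * z⁻¹) ↔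
      a ∈ SF cs hp.isCartan (ch hp) (fun i : ↥F => z * i.1 * z⁻¹) := by
    have b4' : Fr cs hp.isCartan (TL (Tj hp (k := k))) (XL (Xj hp (k := k))) (MulAut.conj k₀ * σ) g₀ := by
      rw [hTL, hXL]; exact F0
    exact Fr_mem_SF C' b4' (fun i => by rw [hTL]; exact hz _ (hF i.2)) (fun i => a6 ⟨i.1, hF i.2⟩)
  have hRS : RSub cs hp.isCartan (SF cs hp.isCartan (ch hp) (fun i : ↥F => z * i.1 * z⁻¹)) :=
    SF_rsub hp cs hk r fun i => hz _ (hF i.2)
  -- the adjustment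
  obtain ⟨z', k', v, -, b2, b3, b4, -, b6, b7⟩ := adjustD hp cs hk he hσ (x := fun i : ↥F => i.1)
    (t := fun i : ↥F => z * i.1 * z⁻¹) (z := z₀) (fun i => a2 ⟨i.1, hF i.2⟩) (fun i => hz _ (hF i.2)) a3 F0
    (fun i => a6 ⟨i.1, hF i.2⟩)
  obtain ⟨a, ha, haL, -, hga⟩ := exists_fixed' hRS (LL_long h hp cs) F0.root hSF hg₀L
    (fun w a ha => LL_rep hp cs ha w) b6 b7 hβ hβL hβg
  obtain ⟨y, hy, hy1, hy2⟩ := conj_th h hp cs hk he hZ hσ Fσ hgθ b3 b4 haL hga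
  refine ⟨y, hy, fun u hu x hx => ?_⟩
  have h1 : z'⁻¹ * (y * u * y⁻¹) * z' ∈ MF cs hp.isCartan (XX D l k) (ch hp) (fun i : ↥F => z * i.1 * z⁻¹) := by
    rcases hu with hu | hu
    · exact RGD.le_Sup (X := XX D l k) ha (hy1 u hu)
    · exact RGD.le_Sup (X := XX D l k) (hRS.neg a ha) (hy2 u hu)
  have h2 := MF_commD hp cs hk r (fun i : ↥F => hz _ (hF i.2)) h1 ⟨x, hx⟩
  have h3 : x = z' * (z * x * z⁻¹) * z'⁻¹ := by
    have := b2 ⟨x, hx⟩
    rw [← this]; group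
  have h4 : y * u * y⁻¹ = z' * (z'⁻¹ * (y * u * y⁻¹) * z') * z'⁻¹ := by group
  rw [h4, h3]
  calc z' * (z'⁻¹ * (y * u * y⁻¹) * z') * z'⁻¹ * (z' * (z * x * z⁻¹) * z'⁻¹)
      = z' * (z'⁻¹ * (y * u * y⁻¹) * z' * (z * x * z⁻¹)) * z'⁻¹ := by group
    _ = z' * (z * x * z⁻¹ * (z'⁻¹ * (y * u * y⁻¹) * z')) * z'⁻¹ := by rw [h2]
    _ = _ := by group

include h hk he in
/-- **A fixed long root, or `g₀ ² = -1`.** -/
theorem long_fixed_or (hZ : Subgroup.center ↥(D.group k) = ⊥) {σ : MulAut ↥(D.group k)} (hσ : IsFrob r e σ)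
    {g : (Fin l → ℤ) ≃+ (Fin l → ℤ)} (Fσ : Fr cs hp.isCartan (TT D k) (XX D l k) σ g) (hgθ : g (th D l) = th D l)
    {p : ℕ} (hpp : p.Prime) {E : Subgroup ↥(D.group k)} [Finite ↥E] (hEp : ∀ a ∈ E, a ^ p = 1)
    (hyp : ∃ F ≤ E, (F.subgroupOf E).index = p) (hEσ : ∀ a ∈ E, σ a = a)
    {z : ↥(D.group k)} (hz : ∀ a ∈ E, z * a * z⁻¹ ∈ TT D k) :
    (∃ F ≤ E, (F.subgroupOf E).index = p ∧ ∃ y : ↥(D.group k), σ y = y ∧
      ∀ u, (u ∈ XX D l k (th D l) ∨ u ∈ XX D l k (-th D l)) → ∀ x ∈ F, y * u * y⁻¹ * x = x * (y * u * y⁻¹)) ∨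
    ∃ (z₀ k₀ : ↥(D.group k)) (w : W), (∀ i : ↥E, z₀⁻¹ * i.1 * z₀ = z * i.1 * z⁻¹) ∧ z₀⁻¹ * σ z₀ = k₀ ∧
      Fr cs hp.isCartan (TT D k) (XX D l k) (MulAut.conj k₀ * σ) (g.trans (repAut cs hp.isCartan w)) ∧
      (∀ i : ↥E, (MulAut.conj k₀ * σ) (z * i.1 * z⁻¹) = z * i.1 * z⁻¹) ∧
      (∀ β ∈ LL cs hp, cpr cs hp.isCartan (rep cs hp.isCartan w (g β)) β = 0) ∧
      ∀ x, rep cs hp.isCartan w (g (rep cs hp.isCartan w (g x))) = -x := by
  have := finite_W hp cs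
  have H := tow (k := k) hp cs hk r
  have hTL := TL_eq (k := k) hp hk
  have hXL := XL_eq (k := k) hp hk
  have C := coordsL (k := k) hp cs hk r
  have C' : Coords cs hp.isCartan (TL (Tj hp (k := k))) (nc hp k) (XL (Xj hp (k := k))) (xc hp) (ch hp) := by
    rw [hTL, hXL]; exact C
  set t : ↥E → ↥(D.group k) := fun i => z * i.1 * z⁻¹ with ht
  have htT : ∀ i, t i ∈ TT D k := fun i => hz _ i.2
  obtain ⟨z₀, k₀, w, -, a2, a3, F0, a6⟩ := frameD hp cs hk he hσ Fσ (x := fun i : ↥E => i.1)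
    (fun i => hEσ _ i.2) (z := z⁻¹) (t := t) (fun i => by rw [ht]; group) htT
  have hg₀θ : (g.trans (repAut cs hp.isCartan w)) (th D l) ∈ LL cs hp := ⟨w, by
    show rep cs hp.isCartan w (g (th D l)) = _
    rw [hgθ]⟩
  by_cases hc : ∃ β ∈ LL cs hp, cpr cs hp.isCartan (rep cs hp.isCartan w (g β)) β ≠ 0
  · left
    obtain ⟨β, hβ, h1⟩ := hc
    have hβr := LL_root h hp cs hβ
    obtain ⟨F, hF, hFi, h2⟩ := exists_hyp hp cs hk r hpp hEp hyp hz hβr
    have h3 : β ∈ SF cs hp.isCartan (ch hp) (fun i : ↥F => z * i.1 * z⁻¹) := ⟨hβr, fun i => h2 _ i.2⟩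
    have : Finite ↥F := Finite.of_injective _ (Subgroup.inclusion_injective hF)
    have hSF : rep cs hp.isCartan w (g β) ∈ SF cs hp.isCartan (ch hp) (fun i : ↥F => z * i.1 * z⁻¹) := by
      have b4' : Fr cs hp.isCartan (TL (Tj hp (k := k))) (XL (Xj hp (k := k))) (MulAut.conj k₀ * σ)
          (g.trans (repAut cs hp.isCartan w)) := by
        rw [hTL, hXL]; exact F0
      exact (Fr_mem_SF C' b4' (fun i => by rw [hTL]; exact hz _ (hF i.2)) (fun i => a6 ⟨i.1, hF i.2⟩) β).2 h3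
    exact ⟨F, hF, hFi, fixed_of_conn h hp cs hk he hZ hσ Fσ hgθ hz a2 a3 F0 a6 hF h3 hβ
      (conn_of_ne (SF_rsub hp cs hk r fun i => hz _ (hF i.2)) hSF h1)⟩
  · right
    push Not at hc
    refine ⟨z₀, k₀, w, a2, a3, F0, a6, hc, fun x => ?_⟩
    exact neg_of_LL h hp cs F0.root (fun a ha => sq_of_orth h hp cs F0.root hg₀θ hc ha) x

include h hk he in
/-- **A fixed long root.** -/
theorem long_fixed (hZ : Subgroup.center ↥(D.group k) = ⊥) {σ : MulAut ↥(D.group k)} (hσ : IsFrob r e σ)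
    {g : (Fin l → ℤ) ≃+ (Fin l → ℤ)} (Fσ : Fr cs hp.isCartan (TT D k) (XX D l k) σ g) (hgθ : g (th D l) = th D l)
    {p : ℕ} (hpp : p.Prime) {E : Subgroup ↥(D.group k)} [Finite ↥E] (hEp : ∀ a ∈ E, a ^ p = 1)
    (hyp : ∃ F ≤ E, (F.subgroupOf E).index = p) (hEσ : ∀ a ∈ E, σ a = a)
    {z : ↥(D.group k)} (hz : ∀ a ∈ E, z * a * z⁻¹ ∈ TT D k)
    (hNS : ¬ p ∣ (r ^ e) ^ 2 + 1 ∨
      ∀ w : W, ∃ x, rep cs hp.isCartan w (g (rep cs hp.isCartan w (g x))) ≠ -x) :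
    ∃ F ≤ E, (F.subgroupOf E).index = p ∧ ∃ y : ↥(D.group k), σ y = y ∧
      ∀ u, (u ∈ XX D l k (th D l) ∨ u ∈ XX D l k (-th D l)) → ∀ x ∈ F, y * u * y⁻¹ * x = x * (y * u * y⁻¹) := by
  have := finite_W hp cs
  rcases long_fixed_or h hp cs hk he hZ hσ Fσ hgθ hpp hEp hyp hEσ hz with h0 | ⟨z₀, k₀, w, a2, a3, F0, a6, -, hsq⟩
  · exact h0
  rcases hNS with hNS | hNS
  · have hg₀θ : rep cs hp.isCartan w (g (th D l)) ∈ LL cs hp := ⟨w, by rw [hgθ]⟩
    -- all long roots are trivial on `E`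
    have h1 : ∀ a ∈ LL cs hp, ∀ x ∈ E, ch hp a (z * x * z⁻¹) = 1 := by
      intro a ha x hx
      have har := LL_root h hp cs ha
      have hτ := hσ.conj_mul k₀
      have h2 := fr_ch hp cs hk hτ F0 har (hz x hx)
      have h3 := fr_ch hp cs hk hτ F0 ((F0.root a).2 har) (hz x hx)
      have h4 : (MulAut.conj k₀ * σ) (z * x * z⁻¹) = z * x * z⁻¹ := a6 ⟨x, hx⟩
      have h40 : (g.trans (repAut cs hp.isCartan w)) ((g.trans (repAut cs hp.isCartan w)) a) = -a := hsq a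
      rw [h4] at h2 h3
      rw [h2, h40, ch_neg hp cs hk r har (hz x hx)] at h3
      have h5 := ch_ne_zero hp cs hk r har (hz x hx)
      have h6 : ch hp a (z * x * z⁻¹) ^ ((r ^ e) ^ 2 + 1) = 1 := by
        rw [pow_succ, sq, pow_mul, ← h3, inv_mul_cancel₀ h5]
      have h7 : ch hp a (z * x * z⁻¹) ^ p = 1 := by
        rw [← H696.GmnToral.ch_pow hp cs hk r har (hz x hx), conj_pow, hEp x hx, mul_one, mul_inv_cancel,
          ch_one hp cs hk r har]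
      have h8 : Nat.Coprime p ((r ^ e) ^ 2 + 1) := (Nat.Prime.coprime_iff_not_dvd hpp).2 hNS
      have h9 := pow_gcd_eq_one.2 ⟨h7, h6⟩
      rwa [h8.gcd_eq_one, pow_one] at h9
    obtain ⟨F, hF, hFi⟩ := hyp
    have h2 : ∀ a ∈ LL cs hp, a ∈ SF cs hp.isCartan (ch hp) (fun i : ↥F => z * i.1 * z⁻¹) := fun a ha =>
      ⟨LL_root h hp cs ha, fun i => h1 a ha _ (hF i.2)⟩
    obtain ⟨c, hc, h3, h4⟩ := LL_conn h hp cs hg₀θ (th_mem hp cs)
    exact ⟨F, hF, hFi, fixed_of_conn h hp cs hk he hZ hσ Fσ hgθ hz a2 a3 F0 a6 hF (h2 _ (th_mem hp cs))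
      (th_mem hp cs) ⟨c, h2 c hc, h3, h4⟩⟩
  · exfalso
    obtain ⟨x, hx⟩ := hNS w
    exact hx (hsq x)

end Frames

section Main

variable {hp} {r q : ℕ} [hr : Fact r.Prime] {K₀ : Type v} [Group K₀]

include h in
/-- the center of `D.group (KK r)` -/
theorem center_KK (r : ℕ) [Fact r.Prime] : Subgroup.center ↥(D.group (KK r)) = ⊥ := by
  classical
  have key : IsSimpleGroup ↥(D.group (KK r)) ∧ ¬ IsMulCommutative ↥(D.group (KK r)) := by
    by_cases hD : D = chevG2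
    · subst hD
      obtain ⟨a, ha⟩ := Infinite.exists_notMem_finset ({0, 1} : Finset (KK r))
      simp only [Finset.mem_insert, Finset.mem_singleton, not_or] at ha
      exact S1055.result ⟨a, ha⟩
    · refine S1054.result D ?_
      have h1 := h
      simp only [HiList, List.mem_cons, List.not_mem_nil, or_false] at h1 ⊢
      tauto
  obtain ⟨h1, h2⟩ := key
  rcases (inferInstance : (Subgroup.center ↥(D.group (KK r))).Normal).eq_bot_or_eq_top with h3 | h3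
  · exact h3
  · exfalso
    apply h2
    refine ⟨⟨fun a b => ?_⟩⟩
    have : b ∈ Subgroup.center ↥(D.group (KK r)) := by rw [h3]; trivial
    exact Subgroup.mem_center_iff.1 this a

include h in
/-- **Generation**: `M₀` contains a long root group `X_{± θ}^y ∩ Y^σ`, and the subspaces stable under `M₀` are stable under
`Y`: then `M₀ = K₀`. -/
theorem gen_of_stab (m : MData hp r q K₀) [Finite K₀] [IsSimpleGroup K₀] (hq : 3 ≤ q)
    {M₀ : Subgroup K₀} {y : ↥(D.group (KK r))} (hy : m.σ y = y)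
    (hlong : ∀ u, m.σ u = u → (u ∈ XX D l (KK r) (th D l) ∨ u ∈ XX D l (KK r) (-th D l)) →
      y * u * y⁻¹ ∈ M₀.map m.ι)
    (hstab : ∀ L : Submodule (KK r) (D.Idx → KK r), (∀ a ∈ M₀, StabU L (m.ι a)) → ∀ u, StabU L u) : M₀ = ⊤ := by
  have hk := locFin r
  have hZ := center_KK h r
  have hD : 0 < D.nroots := ChevalleyStructure.RootVec.nroots_pos h.checked
  have hq1 : 1 < q := by omega
  have hyi : m.σ y⁻¹ = y⁻¹ := by rw [map_inv, hy]
  -- the subgroups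
  set HH : Subgroup ↥(D.group (KK r)) := M₀.map m.ι with hHH
  set H' : Subgroup ↥(D.group (KK r)) := HH.map (MulAut.conj y⁻¹).toMonoidHom with hH'
  have hmem : ∀ u, u ∈ H' ↔ y * u * y⁻¹ ∈ HH := by
    intro u
    constructor
    · rintro ⟨v, hv, rfl⟩
      have : y * ((MulAut.conj y⁻¹).toMonoidHom v) * y⁻¹ = v := by
        show y * (y⁻¹ * v * y⁻¹⁻¹) * y⁻¹ = v
        group
      rw [this]; exact hv
    · intro hu
      refine ⟨_, hu, ?_⟩
      show y⁻¹ * (y * u * y⁻¹) * y⁻¹⁻¹ = u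
      group
  have hσ' : ∀ u ∈ H', m.σ u = u := by
    intro u hu
    obtain ⟨a, -, ha⟩ := (hmem u).1 hu
    have h1 := m.fix a
    rw [ha, map_mul, map_mul, hy, hyi] at h1
    exact mul_left_cancel (mul_right_cancel h1)
  have hθ : IsRoot M.toCoxeterSystem hp.isCartan (th D l) := th_root h hp M.toCoxeterSystem
  have hA1 : ∀ u, m.σ u = u → (u ∈ XX D l (KK r) (th D l) ∨ u ∈ XX D l (KK r) (-th D l)) → u ∈ H' := by
    intro u hu hux
    rw [hmem]
    exact hlong u hu hux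
  -- the submodule
  set L : Submodule (KK r) (D.Idx → KK r) := Submodule.span (KK r)
      {v | ∃ h ∈ H', v = ((h : GL D.Idx (KK r)) : Matrix D.Idx D.Idx (KK r)) *ᵥ ev D (KK r) (D.nroots - 1)} with hLdef
  have hLH : ∀ h ∈ H', StabU L h := by
    intro h hh v hv
    have h1 : L ≤ L.comap (((h : GL D.Idx (KK r)) : Matrix D.Idx D.Idx (KK r)).mulVecLin) := by
      refine Submodule.span_le.2 ?_
      rintro _ ⟨h', hh', rfl⟩
      refine Submodule.subset_span ⟨h * h', mul_mem hh hh', ?_⟩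
      rw [Matrix.mulVecLin_apply, Matrix.mulVec_mulVec]
      rfl
    exact h1 hv
  have hLtop : ev D (KK r) (D.nroots - 1) ∈ L := Submodule.subset_span ⟨1, one_mem _, by
    rw [Subgroup.coe_one, Units.val_one, Matrix.one_mulVec]⟩
  have hall : ∀ u : ↥(D.group (KK r)), StabU L u := by
    intro u
    have h1 := hstab (tr L y⁻¹) (fun a ha => by
      rw [stabU_tr, inv_inv]
      refine hLH _ ((hmem _).2 ?_)
      have e1 : y * (y⁻¹ * m.ι a * y) * y⁻¹ = m.ι a := by group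
      rw [e1]
      exact ⟨a, ha, rfl⟩) (y * u * y⁻¹)
    rw [stabU_tr, inv_inv] at h1
    have e1 : y⁻¹ * (y * u * y⁻¹) * y = u := by group
    rwa [e1] at h1
  -- Theorem Z
  obtain ⟨i₀, hi, hi1, hZt⟩ := H818.StrP.UThm.thmZ m h hq
  obtain ⟨h1, h2⟩ := hZt H' hσ' (fun u hu hux => hA1 u hu (Or.inl hux)) (fun u hu hux => hA1 u hu (Or.inr hux))
    (fun s hs => by
      have h3 := H549.Exc.all_of_top hp.inList (L := L) (fun g v hv => hall g v hv) hLtop ⟨s, hs⟩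
      rw [ChevalleyStructure.XColumns.ev_eq_single hs]
      exact h3)
  -- the conclusion
  have hN : NQ m i₀ ≤ H'.comap m.ι := by
    refine (Subgroup.closure_le _).2 ?_
    rintro a (ha | ha)
    · exact h1 _ (m.fix a) ha
    · exact h2 _ (m.fix a) ha
  have hn := NQ_normal m hi
  have htop : H'.comap m.ι = ⊤ := by
    rcases hn.eq_bot_or_eq_top with h3 | h3
    · exfalso
      obtain ⟨a, ha1, ha⟩ := exists_top m hD hq1
      refine ha1 (Subgroup.mem_bot.1 ?_)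
      rw [← h3]
      refine Subgroup.subset_closure (Or.inl ?_)
      exact RGD.le_Sup (X := XX D l (KK r)) (S := {a | IsRoot M.toCoxeterSystem hp.isCartan a ∧ 1 ≤ a i₀})
        ⟨hθ, hi1⟩ ha
    · exact top_le_iff.1 (h3 ▸ hN)
  have h3 : Nat.card K₀ ≤ Nat.card ↥M₀ := by
    let f : K₀ → ↥M₀ := fun a => ⟨((hmem _).1 (show m.ι a ∈ H' from by
      have : a ∈ H'.comap m.ι := by rw [htop]; exact Subgroup.mem_top a
      exact this)).choose, ((hmem _).1 (show m.ι a ∈ H' from by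
      have : a ∈ H'.comap m.ι := by rw [htop]; exact Subgroup.mem_top a
      exact this)).choose_spec.1⟩
    refine Nat.card_le_card_of_injective f ?_
    intro a b hab
    have ha := ((hmem _).1 (show m.ι a ∈ H' from by
      have : a ∈ H'.comap m.ι := by rw [htop]; exact Subgroup.mem_top a
      exact this)).choose_spec.2
    have hb := ((hmem _).1 (show m.ι b ∈ H' from by
      have : b ∈ H'.comap m.ι := by rw [htop]; exact Subgroup.mem_top b
      exact this)).choose_spec.2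
    have hab' := congrArg (fun x : ↥M₀ => m.ι x.1) hab
    simp only [f] at hab'
    rw [ha, hb] at hab'
    exact m.inj (mul_left_cancel (mul_right_cancel hab'))
  exact Subgroup.eq_top_of_le_card _ h3

include h in
/-- **Generation by the centralisers of the hyperplanes** (only the `r`-elements), with a long root group given. -/
theorem gen_of_long (m : MData hp r q K₀) [Finite K₀] [IsSimpleGroup K₀] (hq : 3 ≤ q) (hG2 : D = chevG2 → 4 ≤ q)
    {p : ℕ} (hpp : p.Prime) {E : Subgroup ↥(D.group (KK r))} [Finite ↥E] (hEp : ∀ a ∈ E, a ^ p = 1)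
    (hyp : ∃ F ≤ E, (F.subgroupOf E).index = p) (hEσ : ∀ a ∈ E, m.σ a = a)
    {z : ↥(D.group (KK r))} (hz : ∀ a ∈ E, z * a * z⁻¹ ∈ TT D (KK r))
    {M₀ : Subgroup K₀} (hM : ∀ F ≤ E, (F.subgroupOf E).index = p → ∀ a : K₀, (∃ j, a ^ r ^ j = 1) →
      (∀ x ∈ F, m.ι a * x = x * m.ι a) → a ∈ M₀) {y : ↥(D.group (KK r))} (hy : m.σ y = y)
    (hlong : ∀ u, m.σ u = u → (u ∈ XX D l (KK r) (th D l) ∨ u ∈ XX D l (KK r) (-th D l)) →
      y * u * y⁻¹ ∈ M₀.map m.ι) : M₀ = ⊤ := by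
  refine gen_of_stab h m hq hy hlong fun L hL u => ?_
  refine stabU_topF hp M.toCoxeterSystem (locFin r) m.he (density m hq hG2) m.frob m.fr hpp hEp hyp hEσ hz
    (fun F hF hFi v hv hvx hvr => ?_) u
  obtain ⟨a, rfl⟩ := m.exists_eq hv hvr
  obtain ⟨j, hj⟩ := hvr
  exact hL a (hM F hF hFi a ⟨j, m.inj (by rw [map_pow, hj, map_one])⟩ hvx)

/-- `gen_of_long` for a long root group commuting with a hyperplane -/
theorem gen_of_fixed (h : HiList D) (m : MData hp r q K₀) [Finite K₀] [IsSimpleGroup K₀] (hq : 3 ≤ q)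
    (hG2 : D = chevG2 → 4 ≤ q)
    {p : ℕ} (hpp : p.Prime) {E : Subgroup ↥(D.group (KK r))} [Finite ↥E] (hEp : ∀ a ∈ E, a ^ p = 1)
    (hyp : ∃ F ≤ E, (F.subgroupOf E).index = p) (hEσ : ∀ a ∈ E, m.σ a = a)
    {z : ↥(D.group (KK r))} (hz : ∀ a ∈ E, z * a * z⁻¹ ∈ TT D (KK r))
    {M₀ : Subgroup K₀} (hM : ∀ F ≤ E, (F.subgroupOf E).index = p → ∀ a : K₀, (∃ j, a ^ r ^ j = 1) →
      (∀ x ∈ F, m.ι a * x = x * m.ι a) → a ∈ M₀) (hfix : ∃ F ≤ E, (F.subgroupOf E).index = p ∧ ∃ y : ↥(D.group (KK r)), m.σ y = y ∧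
      ∀ u, (u ∈ XX D l (KK r) (th D l) ∨ u ∈ XX D l (KK r) (-th D l)) → ∀ x ∈ F,
        y * u * y⁻¹ * x = x * (y * u * y⁻¹)) : M₀ = ⊤ := by
  obtain ⟨F, hF, hFi, y, hy, hcomm⟩ := hfix
  refine gen_of_long h m hq hG2 hpp hEp hyp hEσ hz hM hy fun u hu hux => ?_
  have hyi : m.σ y⁻¹ = y⁻¹ := by rw [map_inv, hy]
  have hθ : IsRoot M.toCoxeterSystem hp.isCartan (th D l) := th_root h hp M.toCoxeterSystem
  obtain ⟨j, hj⟩ : ∃ j, u ^ r ^ j = 1 := by
    rcases hux with h1 | h1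
    · exact pow_of_rootD hp M.toCoxeterSystem (locFin r) r hθ h1
    · exact pow_of_rootD hp M.toCoxeterSystem (locFin r) r hθ.neg h1
  have h1 : m.σ (y * u * y⁻¹) = y * u * y⁻¹ := by rw [map_mul, map_mul, hy, hyi, hu]
  have h2 : ∃ j, (y * u * y⁻¹) ^ r ^ j = 1 := ⟨j, by rw [conj_pow, hj, mul_one, mul_inv_cancel]⟩
  obtain ⟨a, ha⟩ := m.exists_eq h1 h2
  obtain ⟨j', hj'⟩ := h2
  exact ⟨a, hM F hF hFi a ⟨j', m.inj (by rw [map_pow, ha, hj', map_one])⟩ (by rw [ha]; exact hcomm u hux), ha⟩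

/-- **Generation by the `r`-elements of the centralisers of the hyperplanes.** -/
theorem gen_top_r (h : HiList D) (m : MData hp r q K₀) [Finite K₀] [IsSimpleGroup K₀] (hq : 3 ≤ q)
    (hG2 : D = chevG2 → 4 ≤ q)
    {p : ℕ} (hpp : p.Prime) {E : Subgroup ↥(D.group (KK r))} [Finite ↥E] (hEp : ∀ a ∈ E, a ^ p = 1)
    (hyp : ∃ F ≤ E, (F.subgroupOf E).index = p) (hEσ : ∀ a ∈ E, m.σ a = a)
    {z : ↥(D.group (KK r))} (hz : ∀ a ∈ E, z * a * z⁻¹ ∈ TT D (KK r))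
    (hNS : ¬ p ∣ q ^ 2 + 1 ∨ ∀ w, ∃ x,
      rep M.toCoxeterSystem hp.isCartan w (m.g (rep M.toCoxeterSystem hp.isCartan w (m.g x))) ≠ -x)
    {M₀ : Subgroup K₀} (hM : ∀ F ≤ E, (F.subgroupOf E).index = p → ∀ a : K₀, (∃ j, a ^ r ^ j = 1) →
      (∀ x ∈ F, m.ι a * x = x * m.ι a) → a ∈ M₀) : M₀ = ⊤ :=
  gen_of_fixed h m hq hG2 hpp hEp hyp hEσ hz hM (long_fixed h hp M.toCoxeterSystem (locFin r) m.he (center_KK h r)
    m.frob m.fr m.top hpp hEp hyp hEσ hz (by rw [m.hq]; exact hNS))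

/-- **Generation by the centralisers of the hyperplanes.** -/
theorem gen_top (h : HiList D) (m : MData hp r q K₀) [Finite K₀] [IsSimpleGroup K₀] (hq : 3 ≤ q)
    (hG2 : D = chevG2 → 4 ≤ q)
    {p : ℕ} (hpp : p.Prime) {E : Subgroup ↥(D.group (KK r))} [Finite ↥E] (hEp : ∀ a ∈ E, a ^ p = 1)
    (hyp : ∃ F ≤ E, (F.subgroupOf E).index = p) (hEσ : ∀ a ∈ E, m.σ a = a)
    {z : ↥(D.group (KK r))} (hz : ∀ a ∈ E, z * a * z⁻¹ ∈ TT D (KK r))
    (hNS : ¬ p ∣ q ^ 2 + 1 ∨ ∀ w, ∃ x,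
      rep M.toCoxeterSystem hp.isCartan w (m.g (rep M.toCoxeterSystem hp.isCartan w (m.g x))) ≠ -x)
    {M₀ : Subgroup K₀} (hM : ∀ F ≤ E, (F.subgroupOf E).index = p → ∀ a : K₀, (∀ x ∈ F, m.ι a * x = x * m.ι a) →
      a ∈ M₀) : M₀ = ⊤ :=
  gen_top_r h m hq hG2 hpp hEp hyp hEσ hz hNS fun F hF hFi a _ ha => hM F hF hFi a ha

end Main

end Cfsg.Agent.H225.Gen
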