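import Cfsg.Agent.H795.RowsA

/-!
# Elements of order 3 of the Weyl groups of type `G₂`, `D₄` (S2187, helper225)

`tors_of_rfl` : the certificate `Tors` from one product of reflections; `tors_G2`, `tors_D4` : `Tors` for `3`.
-/

set_option autoImplicit false
set_option linter.unusedSectionVars false

namespace Cfsg.Agent.H225.Gen

open CoxeterSystem Cfsg Cfsg.Lie Cfsg.Lie.ChevalleyDatum
open Cfsg.Agent.ChevalleyStructure Cfsg.Agent.ChevalleyStructure.CoxeterGeom
  Cfsg.Agent.ChevalleyStructure.CoxeterGeomTypes Cfsg.Agent.ChevalleyStructure.NPerm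
open Cfsg.Agent.Tits.Roots Cfsg.Agent.Tits.Core Cfsg.Agent.Nodes Cfsg.Agent.Nodes.Reps
  Cfsg.Agent.Nodes.RGDChev Cfsg.Agent.Nodes.SubComb
open Cfsg.Agent.H129.WData Cfsg.Agent.H129.TorusChar Cfsg.Agent.H795.SetTor Cfsg.Agent.H795.TorsData
  Cfsg.Agent.H795.RowsA

/-- The certificate for one product of reflections of order `l`, `l ∥ |W|`. -/
theorem tors_of_rfl {I W : Type*} [Fintype I] [DecidableEq I] [Group W] {M : CoxeterMatrix I}
    {cs : CoxeterSystem M W} {A : I → I → ℤ} {h : IsCartan M A} [Finite W] {l : ℕ} (hl : l.Prime)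
    (hW : ¬ l ^ 2 ∣ Nat.card W) (L : List (W × I)) (w₀ : W)
    (hw₀ : w₀ = (L.map fun a => rfl' cs a.1 a.2).prod) (ho : orderOf w₀ = l)
    (hx : ∀ a ∈ L, ∃ x : I → ℤ, rep cs h w₀ x - x = rep cs h a.1 (sr a.2)) : Tors cs h l := by
  classical
  intro w hw
  have hfl : Fact l.Prime := ⟨hl⟩
  have hdvd : l ∣ Nat.card W := ho ▸ orderOf_dvd_natCard w₀
  -- both cyclic groups are Sylow subgroups
  have hsyl : ∀ v : W, orderOf v = l → ∃ P : Sylow l W, (P : Subgroup W) = Subgroup.zpowers v := by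
    intro v hv
    have h1 : IsPGroup l ↥(Subgroup.zpowers v) :=
      IsPGroup.of_card (n := 1) (by rw [Nat.card_zpowers, hv, pow_one])
    have h2 : ¬ l ∣ (Subgroup.zpowers v).index := by
      intro hd
      apply hW
      rw [← Subgroup.card_mul_index (Subgroup.zpowers v), Nat.card_zpowers, hv, pow_two]
      exact Nat.mul_dvd_mul_left l hd
    exact ⟨h1.toSylow h2, rfl⟩
  obtain ⟨P, hP⟩ := hsyl w hw
  obtain ⟨P₀, hP₀⟩ := hsyl w₀ ho
  obtain ⟨g, hg⟩ := MulAction.exists_smul_eq W P₀ P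
  -- `g w₀ g⁻¹` is a power of `w`
  have h1 : g * w₀ * g⁻¹ ∈ Subgroup.zpowers w := by
    rw [← hP, ← hg, Sylow.coe_subgroup_smul, Subgroup.mem_pointwise_smul_iff_inv_smul_mem, ← map_inv, MulAut.smul_def,
      MulAut.conj_apply, inv_inv, hP₀]
    have e : g⁻¹ * (g * w₀ * g⁻¹) * g = w₀ := by group
    rw [e]
    exact Subgroup.mem_zpowers w₀
  have hfin : IsOfFinOrder w := isOfFinOrder_of_finite w
  obtain ⟨i, hi⟩ := hfin.mem_powers_iff_mem_zpowers.2 h1
  have hi' : w ^ i = g * w₀ * g⁻¹ := hi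
  -- `w` is a power of `g w₀ g⁻¹`
  have hord : orderOf (g * w₀ * g⁻¹) = l := by
    rw [← MulAut.conj_apply]
    rw [← ho]
    exact orderOf_injective (MulAut.conj g).toMonoidHom (MulAut.conj g).injective w₀
  have h2 : w ∈ Subgroup.zpowers (g * w₀ * g⁻¹) := by
    have h3 : Subgroup.zpowers (g * w₀ * g⁻¹) ≤ Subgroup.zpowers w := Subgroup.zpowers_le.2 h1
    have h4 : Subgroup.zpowers (g * w₀ * g⁻¹) = Subgroup.zpowers w := by
      refine Subgroup.eq_of_le_of_card_ge h3 ?_
      rw [Nat.card_zpowers, Nat.card_zpowers, hord, hw]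
    rw [h4]
    exact Subgroup.mem_zpowers w
  -- `(w ^ i - 1) y = (w - 1) (∑ ...)`
  have hsum : ∀ (m : ℕ) (y : I → ℤ), ∃ x, rep cs h w x - x = rep cs h (w ^ m) y - y := by
    intro m y
    induction m with
    | zero => exact ⟨0, by rw [map_zero, sub_zero, pow_zero, map_one, Module.End.one_apply, sub_self]⟩
    | succ m ih =>
      obtain ⟨x, hx⟩ := ih
      refine ⟨x + rep cs h (w ^ m) y, ?_⟩
      rw [map_add, pow_succ', rep_mul_apply]
      have : rep cs h w x - x = rep cs h (w ^ m) y - y := hx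
      have e : rep cs h w x = rep cs h (w ^ m) y - y + x := by rw [← this]; abel
      rw [e]
      abel
  have h5 : g * w₀ * g⁻¹ ∈ Subgroup.closure {v | ∃ (u : W) (i : I) (x : I → ℤ), v = rfl' cs u i ∧
      rep cs h w x - x = rep cs h u (sr i)} := by
    have h6 : ∀ a ∈ L, g * rfl' cs a.1 a.2 * g⁻¹ ∈ Subgroup.closure {v | ∃ (u : W) (i : I) (x : I → ℤ), v = rfl' cs u i ∧
        rep cs h w x - x = rep cs h u (sr i)} := by
      intro a ha
      apply Subgroup.subset_closure
      obtain ⟨x, hx⟩ := hx a ha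
      obtain ⟨y, hy⟩ := hsum i (rep cs h g x)
      refine ⟨g * a.1, a.2, y, ?_, ?_⟩
      · unfold rfl'
        group
      · rw [hy, hi', rep_mul_apply, rep_mul_apply]
        have e : rep cs h g⁻¹ (rep cs h g x) = x := by
          rw [← rep_mul_apply, inv_mul_cancel, map_one, Module.End.one_apply]
        rw [e, rep_mul_apply, ← hx, map_sub]
    have h7 : ∀ L' : List (W × I), (∀ a ∈ L', a ∈ L) → g * (L'.map fun a => rfl' cs a.1 a.2).prod * g⁻¹ ∈
        Subgroup.closure {v | ∃ (u : W) (i : I) (x : I → ℤ), v = rfl' cs u i ∧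
        rep cs h w x - x = rep cs h u (sr i)} := by
      intro L'
      induction L' with
      | nil =>
        intro _
        rw [List.map_nil, List.prod_nil, mul_one, mul_inv_cancel]
        exact one_mem _
      | cons a L' ih =>
        intro hL'
        rw [List.map_cons, List.prod_cons]
        have e : g * (rfl' cs a.1 a.2 * (L'.map fun a => rfl' cs a.1 a.2).prod) * g⁻¹ =
            (g * rfl' cs a.1 a.2 * g⁻¹) * (g * (L'.map fun a => rfl' cs a.1 a.2).prod * g⁻¹) := by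
          group
        rw [e]
        exact mul_mem (h6 a (hL' a (List.mem_cons_self))) (ih fun j' hj' => hL' j' (List.mem_cons_of_mem _ hj'))
    rw [hw₀]
    exact h7 L fun _ hj => hj
  exact (Subgroup.zpowers_le.2 h5) h2

/-- the order of a product of simple reflections -/
theorem orderOf_of_data {D : ChevalleyDatum} {l : ℕ} {M : CoxeterMatrix (Fin l)} (hp : IsType D l M)
    {W : Type*} [Group W] (cs : CoxeterSystem M W) [Finite W] {A : Mat l} (hA : ∀ i j, A i j = cartanOf D l i j)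
    {C : List (Fin l × Mat l)}
    (hC : ChainOK A C) {q : ℕ} (hq : q.Prime) {P : List (Mat l)} (hP : PowOK (hd C) P) (hlen : P.length = q)
    (h1 : ∀ j m, hdm P j m = if j = m then 1 else 0) (hne : ∃ j m, hd C j m ≠ if j = m then 1 else 0) :
    orderOf (cs.wordProd (C.map Prod.fst)) = q := by
  have hrep := chain_rep hp cs hA hC
  have hid : ∀ j m : Fin l, (sr j : Fin l → ℤ) m = if j = m then 1 else 0 := by
    intro j m
    by_cases hm : j = m
    · subst hm; rw [if_pos rfl, sr_self]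
    · rw [if_neg hm, sr_ne (Ne.symm hm)]
  have hfq : Fact q.Prime := ⟨hq⟩
  refine orderOf_eq_prime ?_ ?_
  · apply rep_injective cs hp.isCartan
    rw [map_one]
    apply LinearMap.ext
    intro y
    funext m
    rw [← hlen, rep_of_sr hp cs (Th := hdm P) (pow_rep hp cs hrep hP) y m, Module.End.one_apply]
    simp only [h1]
    simp
  · intro h2
    obtain ⟨j, m, hjm⟩ := hne
    apply hjm
    rw [← hrep j, h2, map_one, Module.End.one_apply, hid]

namespace G2q3

def Am : Mat 2 := ![![2, -3], ![-1, 2]]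

def chain : List (Fin 2 × Mat 2) := [
  (1, ![![-2, -1], ![3, 1]]), (0, ![![-2, -1], ![3, 2]]), (1, ![![-1, -1], ![3, 2]]), (0, ![![-1, 0], ![3, 1]])]

def pw : List (Mat 2) := [![![1, 0], ![0, 1]], ![![1, 1], ![-3, -2]], ![![-2, -1], ![3, 1]]]

theorem hA : ∀ i j, Am i j = cartanOf chevG2 2 i j := by decide +kernel
theorem chainOK : ChainOK Am chain := by decide +kernel
theorem powOK : PowOK (hd chain) pw := by decide +kernel
theorem oneOK : ∀ j m, hdm pw j m = if j = m then 1 else 0 := by decide +kernel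
theorem neOK : ∃ j m, hd chain j m ≠ if j = m then 1 else 0 := by decide +kernel
theorem xOK : ∀ m, ∑ n, (![-1, -1] : Fin 2 → ℤ) n * hd chain n m - (![-1, -1] : Fin 2 → ℤ) m = (![0, 1] : Fin 2 → ℤ) m := by
  decide +kernel
theorem yOK : ∀ m, ∑ n, (![-1, 0] : Fin 2 → ℤ) n * hd chain n m - (![-1, 0] : Fin 2 → ℤ) m = (![3, 1] : Fin 2 → ℤ) m := by
  decide +kernel
theorem sOK : ChainOK Am [((0 : Fin 2), ![![-1, 0], ![3, 1]])] := by decide +kernel

end G2q3

theorem tors_G2 (hp : IsType chevG2 2 CoxeterMatrix.G₂) : ¬ 3 ^ 2 ∣ Nat.card CoxeterMatrix.G₂.Group ∧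
    Tors CoxeterMatrix.G₂.toCoxeterSystem hp.isCartan 3 := by
  have := finW hp
  have hW : ¬ 3 ^ 2 ∣ Nat.card CoxeterMatrix.G₂.Group := by rw [card_G2]; norm_num
  set cs := CoxeterMatrix.G₂.toCoxeterSystem with hcs
  have hrep := chain_rep hp cs G2q3.hA G2q3.chainOK
  refine ⟨hW, tors_of_rfl Nat.prime_three hW [(1, 1), (cs.simple 0, 1)] (cs.wordProd (G2q3.chain.map Prod.fst)) ?_
    (orderOf_of_data hp cs G2q3.hA G2q3.chainOK Nat.prime_three G2q3.powOK rfl G2q3.oneOK G2q3.neOK) ?_⟩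
  · show cs.wordProd [1, 0, 1, 0] = _
    simp only [List.map_cons, List.map_nil, List.prod_cons, List.prod_nil, rfl', wordProd_cons, wordProd_nil, mul_one,
      one_mul, inv_one, cs.inv_simple, mul_assoc]
  · intro a ha
    simp only [List.mem_cons, List.not_mem_nil, or_false] at ha
    rcases ha with rfl | rfl
    · refine ⟨![-1, -1], ?_⟩
      funext m
      rw [Pi.sub_apply, rep_of_sr hp cs hrep, G2q3.xOK m, map_one, Module.End.one_apply]
      fin_cases m
      · exact (sr_ne (by decide : (0 : Fin 2) ≠ 1)).symm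
      · exact (sr_self (1 : Fin 2)).symm
    · refine ⟨![-1, 0], ?_⟩
      funext m
      rw [Pi.sub_apply, rep_of_sr hp cs hrep, G2q3.yOK m]
      have h1 := chain_rep hp cs G2q3.hA G2q3.sOK 1
      have h2 : cs.wordProd ([((0 : Fin 2), (![![-1, 0], ![3, 1]] : Mat 2))].map Prod.fst) = cs.simple 0 := by
        simp [wordProd_cons, wordProd_nil]
      rw [h2] at h1
      show _ = rep cs hp.isCartan (cs.simple 0) (sr 1) m
      rw [h1]
      rfl

namespace D4q3

def Am : Mat 4 := ![![2, -1, 0, 0], ![-1, 2, -1, -1], ![0, -1, 2, 0], ![0, -1, 0, 2]]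

def chain : List (Fin 4 × Mat 4) := [
  (0, ![![0, 1, 0, 0], ![-1, -1, 0, 0], ![1, 1, 1, 0], ![1, 1, 0, 1]]),
  (1, ![![1, 1, 0, 0], ![0, -1, 0, 0], ![0, 1, 1, 0], ![0, 1, 0, 1]])]

def pw : List (Mat 4) := [![![1, 0, 0, 0], ![0, 1, 0, 0], ![0, 0, 1, 0], ![0, 0, 0, 1]],
  ![![-1, -1, 0, 0], ![1, 0, 0, 0], ![0, 1, 1, 0], ![0, 1, 0, 1]],
  ![![0, 1, 0, 0], ![-1, -1, 0, 0], ![1, 1, 1, 0], ![1, 1, 0, 1]]]

def xs : Mat 4 := ![![-2, -3, -3, -1], ![-1, -3, -3, -1], ![0, 0, 0, 0], ![0, 0, 0, 0]]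

theorem hA : ∀ i j, Am i j = cartanOf chevD4 4 i j := by decide +kernel
theorem chainOK : ChainOK Am chain := by decide +kernel
theorem powOK : PowOK (hd chain) pw := by decide +kernel
theorem oneOK : ∀ j m, hdm pw j m = if j = m then 1 else 0 := by decide +kernel
theorem neOK : ∃ j m, hd chain j m ≠ if j = m then 1 else 0 := by decide +kernel
theorem xOK : ∀ j ∈ chain.map Prod.fst, ∀ m, ∑ n, xs j n * hd chain n m - xs j m = if m = j then 1 else 0 := by
  decide +kernel

end D4q3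

theorem tors_D4 (hp : IsType chevD4 4 coxeterD4) : ¬ 3 ^ 2 ∣ Nat.card coxeterD4.Group ∧
    Tors coxeterD4.toCoxeterSystem hp.isCartan 3 := by
  have := finW hp
  have hW : ¬ 3 ^ 2 ∣ Nat.card coxeterD4.Group := by rw [card_D4]; norm_num
  exact ⟨hW, tors_of_data hp _ D4q3.hA D4q3.chainOK Nat.prime_three D4q3.powOK rfl D4q3.oneOK D4q3.neOK D4q3.xOK hW⟩

end Cfsg.Agent.H225.Gen
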