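import Cfsg.Agent.H225.Gen.Fin
import Cfsg.Agent.H225.Gen.Tors3
import Cfsg.Agent.H720.TwFr

/-!
# `(w g)² ≠ -1` in the types `G₂`, `E₆`, `²E₆`, `E₇`, `³D₄`; toral groups (S2187, helper225)
-/

set_option autoImplicit false
set_option linter.unusedSectionVars false
set_option linter.unusedVariables false

namespace Cfsg.Agent.H225.Gen

open CoxeterSystem Cfsg Cfsg.Lie Cfsg.Lie.ChevalleyDatum
open Cfsg.Agent.ChevalleyStructure Cfsg.Agent.ChevalleyStructure.Elts Cfsg.Agent.ChevalleyStructure.CoxeterGeom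
  Cfsg.Agent.ChevalleyStructure.CoxeterGeomTypes Cfsg.Agent.ChevalleyStructure.NPerm
open Cfsg.Agent.Tits.Roots Cfsg.Agent.Tits.Core Cfsg.Agent.Nodes Cfsg.Agent.Nodes.Reps Cfsg.Agent.Nodes.BNOf
  Cfsg.Agent.Nodes.RGDChev Cfsg.Agent.Nodes.Coroot Cfsg.Agent.Nodes.SubComb Cfsg.Agent.BpExc.Fr
open Cfsg.Agent.H818.StrP.UTab Cfsg.Agent.H818.StrP.UAct Cfsg.Agent.H123.ExcComb

universe u v

section Mod

variable {D : ChevalleyDatum} {l : ℕ} {M : CoxeterMatrix (Fin l)} (hp : IsType D l M) {W : Type*} [Group W]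
  (cs : CoxeterSystem M W) {g : (Fin l → ℤ) ≃+ (Fin l → ℤ)}

/-- `W` acts trivially on the vectors of `n Λ*` modulo `n Λ` -/
theorem rep_mod {n : ℤ} {v : Fin l → ℤ} (hv : ∀ i, n ∣ pairing (cartanOf D l) i v) (w : W) :
    ∃ c : Fin l → ℤ, rep cs hp.isCartan w v = v + n • c := by
  have := finite_W hp cs
  induction w using cs.simple_induction_left with
  | one => exact ⟨0, by rw [map_one, Module.End.one_apply, smul_zero, add_zero]⟩
  | mul_simple_left w i ih =>
    obtain ⟨c, hc⟩ := ih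
    obtain ⟨a, ha⟩ : n ∣ pairing (cartanOf D l) i (v + n • c) := by
      have h1 : pairing (cartanOf D l) i (v + n • c) = pairing (cartanOf D l) i v + n * pairing (cartanOf D l) i c := by
        rw [← cpr_sr cs hp.isCartan, ← cpr_sr cs hp.isCartan, ← cpr_sr cs hp.isCartan,
          cpr_add cs hp.isCartan _ _ (isRoot_sr cs hp.isCartan i), cpr_smul cs hp.isCartan _ _ (isRoot_sr cs hp.isCartan i)]
      rw [h1]
      exact dvd_add (hv i) (dvd_mul_right _ _)
    refine ⟨c - a • sr i, ?_⟩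
    rw [rep_mul_apply, hc, rep_simple_eq, ha]
    module

/-- **The argument with `Λ* / Λ`.** -/
theorem ns_mod (hg : ∀ a, IsRoot cs hp.isCartan (g a) ↔ IsRoot cs hp.isCartan a) {π : Equiv.Perm (Fin l)}
    (hgπ : ∀ v i, g v i = v (π i)) {n : ℤ} {v : Fin l → ℤ} (hv : ∀ i, n ∣ pairing (cartanOf D l) i v) {i : Fin l}
    (hi : ¬ n ∣ v (π (π i)) + v i) (w : W) :
    ∃ x, rep cs hp.isCartan w (g (rep cs hp.isCartan w (g x))) ≠ -x := by
  have := finite_W hp cs
  by_contra hcon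
  push Not at hcon
  have hgs : ∀ j, g (sr (π j)) = sr j := by
    intro j
    funext m
    rw [hgπ]
    by_cases hm : m = j
    · rw [hm, sr_self, sr_self]
    · rw [sr_ne hm, sr_ne fun h => hm (π.injective h)]
  have hv' : ∀ v : Fin l → ℤ, (∀ i, n ∣ pairing (cartanOf D l) i v) → ∀ i, n ∣ pairing (cartanOf D l) i (g v) := by
    intro v hv j
    rw [← cpr_sr cs hp.isCartan, ← hgs j, cpr_g' hp cs hg (isRoot_sr cs hp.isCartan _), cpr_sr]
    exact hv _
  obtain ⟨c₁, h1⟩ := rep_mod hp cs (hv' v hv) w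
  obtain ⟨c₂, h2⟩ := rep_mod hp cs (hv' _ (hv' v hv)) w
  have h3 := hcon v
  rw [h1, map_add, map_zsmul, map_add, h2, map_zsmul] at h3
  have h4 := congrFun h3 i
  simp only [Pi.add_apply, Pi.smul_apply, Pi.neg_apply, smul_eq_mul, hgπ] at h4
  apply hi
  have h5 : v (π (π i)) + v i = n * (-(c₂ i) - rep cs hp.isCartan w (g c₁) i) := by linarith
  rw [h5]
  exact dvd_mul_right _ _

/-- the determinant argument -/
theorem ns_odd {l : ℕ} (hl : Odd l) (G : (Fin l → ℤ) ≃+ (Fin l → ℤ)) : ∃ x, G (G x) ≠ -x := by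
  by_contra hcon
  push Not at hcon
  let f : (Fin l → ℤ) →ₗ[ℤ] (Fin l → ℤ) := G.toAddMonoidHom.toIntLinearMap
  have h1 : f * f = -1 := by
    apply LinearMap.ext
    intro x
    exact hcon x
  have h2 : LinearMap.det f * LinearMap.det f = LinearMap.det (-1 : Module.End ℤ (Fin l → ℤ)) := by
    rw [← map_mul, h1]
  have h3 : LinearMap.det (-1 : Module.End ℤ (Fin l → ℤ)) = -1 := by
    have h4 : (-1 : Module.End ℤ (Fin l → ℤ)) = (-1 : ℤ) • 1 := by
      rw [neg_smul, one_smul]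
    rw [h4, LinearMap.det_smul, map_one, mul_one, Module.finrank_fin_fun, hl.neg_one_pow]
  rw [h3] at h2
  nlinarith [mul_self_nonneg (LinearMap.det f)]

end Mod

section Types

theorem hi_G2 : HiList chevG2 := by simp [HiList]
theorem hi_D4 : HiList chevD4 := by simp [HiList]
theorem hi_F4 : HiList chevF4 := by simp [HiList]
theorem hi_E6 : HiList chevE6 := by simp [HiList]
theorem hi_E7 : HiList chevE7 := by simp [HiList]
theorem hi_E8 : HiList chevE8 := by simp [HiList]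

/-- no orthogonal long roots in `G₂` -/
theorem cartan_G2 : cartanOf chevG2 2 0 1 = -3 := by decide +kernel

theorem node_G2 : node chevG2 = 1 := by decide +kernel

theorem tab_G2 : ∀ s < chevG2.nroots, vec chevG2 2 s 1 = 0 → vec chevG2 2 s 0 = 1 ∨ vec chevG2 2 s 0 = -1 := by
  decide +kernel

theorem nd_G2 (hp : IsType chevG2 2 CoxeterMatrix.G₂) : nd hi_G2 hp = 1 := Fin.ext node_G2

theorem ns_G2 (hp : IsType chevG2 2 CoxeterMatrix.G₂) {W : Type*} [Group W] (cs : CoxeterSystem CoxeterMatrix.G₂ W)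
    {g : (Fin 2 → ℤ) ≃+ (Fin 2 → ℤ)} (hg : ∀ a, IsRoot cs hp.isCartan (g a) ↔ IsRoot cs hp.isCartan a)
    (hgθ : g (th chevG2 2) = th chevG2 2) (w : W) :
    ∃ x, rep cs hp.isCartan w (g (rep cs hp.isCartan w (g x))) ≠ -x := by
  have := finite_W hp cs
  by_contra hcon
  push Not at hcon
  have hθ := th_root hi_G2 hp cs
  -- `b = w g θ` is orthogonal to `θ`
  set b := rep cs hp.isCartan w (g (th chevG2 2)) with hb
  have hbL : b ∈ LL cs hp := ⟨w, by rw [hb, hgθ]⟩
  have hbr := LL_root hi_G2 hp cs hbL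
  have h1 : cpr cs hp.isCartan b (th chevG2 2) = 0 := by
    have h2 : cpr cs hp.isCartan (rep cs hp.isCartan w (g b)) (rep cs hp.isCartan w (g (th chevG2 2))) =
        cpr cs hp.isCartan b (th chevG2 2) := by
      rw [cpr_rep cs hp.isCartan _ _ ((hg _).2 hθ), cpr_g' hp cs hg hθ]
    rw [hb, hcon, ← hb, cpr_neg cs hp.isCartan _ hbr] at h2
    by_contra h7
    rcases lt_or_gt_of_ne h7 with h8 | h8
    · have h9 := (cpr_pos_comm (h := hp.isCartan) (cs := cs) hbr hθ.neg).1 (by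
        rw [cpr_neg_right cs hp.isCartan _ hθ]; omega)
      rw [cpr_neg cs hp.isCartan _ hbr] at h9
      omega
    · have h9 := (cpr_pos_comm (h := hp.isCartan) (cs := cs) hbr hθ).1 h8
      omega
  rw [cpr_th hi_G2 hp cs, nd_G2] at h1
  -- `b = ± α_0`
  obtain ⟨s, hs, hsb⟩ := (isRoot_iff hp cs b).1 hbr
  have h2 := tab_G2 s hs (by rw [hsb]; exact h1)
  rw [hsb] at h2
  have hle := (LL_long hi_G2 hp cs).le b hbL
  have h0 := isRoot_sr cs hp.isCartan (0 : Fin 2)
  have h01 := isRoot_sr cs hp.isCartan (1 : Fin 2)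
  have h3 : cpr cs hp.isCartan (sr 1) (sr 0) = -3 := by
    rw [cpr_sr, pairing_sr']
    exact cartan_G2
  rcases h2 with h2 | h2
  · have hb0 : b = sr 0 := by
      funext m
      fin_cases m
      · show b 0 = (sr (0 : Fin 2) : Fin 2 → ℤ) 0
        rw [sr_self, h2]
      · show b 1 = (sr (0 : Fin 2) : Fin 2 → ℤ) 1
        rw [sr_ne (by decide), h1]
    have h4 := hle (-sr 1) h01.neg (by
      intro h5
      have h6 := congrFun h5 1
      rw [Pi.neg_apply, sr_self, h1] at h6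
      omega)
    rw [hb0, cpr_neg cs hp.isCartan _ h0, h3] at h4
    omega
  · have hb0 : b = -sr 0 := by
      funext m
      fin_cases m
      · show b 0 = -(sr (0 : Fin 2) : Fin 2 → ℤ) 0
        rw [sr_self, h2]
      · show b 1 = -(sr (0 : Fin 2) : Fin 2 → ℤ) 1
        rw [sr_ne (by decide), h1]
        rfl
    have h4 := hle (sr 1) h01 (by
      intro h5
      have h6 := congrFun h5 1
      rw [sr_self, h1] at h6
      omega)
    rw [hb0, cpr_neg_right cs hp.isCartan _ h0, h3] at h4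
    omega

/-- the vector `3 ω` of `E₆` -/
def v6 : Fin 6 → ℤ := ![4, 3, 5, 6, 4, 2]

theorem v6_dvd : ∀ i, (3 : ℤ) ∣ pairing (cartanOf chevE6 6) i v6 := by decide +kernel

/-- the vector `2 ω` of `D₄` -/
def v4 : Fin 4 → ℤ := ![2, 2, 1, 1]

theorem v4_dvd : ∀ i, (2 : ℤ) ∣ pairing (cartanOf chevD4 4) i v4 := by decide +kernel

end Types

end Cfsg.Agent.H225.Gen
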