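import Cfsg.Agent.H225.Gen.NS
import Cfsg.Agent.H818.Gen.Exc
import Cfsg.Agent.H508.Tor.Toral

/-!
# The inner-diagonal part of the rows of the exceptional groups for non-torsion primes (S2187, helper225)

* `toral_all` : elementary abelian `p`-subgroups of `D.group (KK r)` are toral (`5 ≤ p`, not `E₈`, `p = 5`; or `p = 3`, type
  `G₂`, `D₄`);
* `x12` : `GamY m.ι p E = ⊤` for toral `E`; `x12_r`: only the `r`-elements of the centralisers;
* `genIn_toral` : `GenIn m p`; `genIn_G2`, `genIn_D4` (`³D₄`), `genIn_E6`, `genIn_E7`, `genIn_F4`, `genIn_E8`.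
-/

set_option autoImplicit false
set_option linter.unusedSectionVars false
set_option linter.unusedVariables false

namespace Cfsg.Agent.H225.Gen

open CoxeterSystem Cfsg Cfsg.Lie Cfsg.Lie.ChevalleyDatum
open Cfsg.Agent.ChevalleyStructure Cfsg.Agent.ChevalleyStructure.Elts Cfsg.Agent.ChevalleyStructure.CoxeterGeom
  Cfsg.Agent.ChevalleyStructure.CoxeterGeomTypes Cfsg.Agent.ChevalleyStructure.NPerm
open Cfsg.Agent.Tits.Roots Cfsg.Agent.Tits.Core Cfsg.Agent.Nodes Cfsg.Agent.Nodes.Reps Cfsg.Agent.Nodes.BNOf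
  Cfsg.Agent.Nodes.RGDChev Cfsg.Agent.Nodes.Coroot Cfsg.Agent.Nodes.SubComb Cfsg.Agent.BpExc.Fr
open Cfsg.Agent.KFacts.RgdField Cfsg.Agent.KFacts.RgdChevCoord
open Cfsg.Agent.H818.StrP.UTab Cfsg.Agent.H818.StrP.UAct Cfsg.Agent.H123.ExcComb
open Cfsg.Agent.H469.Exc Cfsg.Agent.H316.U3 Cfsg.Agent.H316.U6 Cfsg.Agent.H818.Gen Cfsg.Agent.H795.TorSub
  Cfsg.Agent.H795.SetTor

universe u v

section

variable {D : ChevalleyDatum} {l : ℕ} {M : CoxeterMatrix (Fin l)} {hp : IsType D l M} {r q : ℕ}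
  [hr : Fact r.Prime] {K₀ : Type v} [Group K₀]

theorem pi_of_refl (m : MData hp r q K₀) (hg : m.g = AddEquiv.refl _) (i : Fin l) : m.π i = i := by
  have h1 := m.perm (sr i) i
  rw [hg, AddEquiv.refl_apply, sr_self] at h1
  by_contra h2
  rw [sr_ne h2] at h1
  exact one_ne_zero h1

theorem pi_of_permE (m : MData hp r q K₀) {ρ : Equiv.Perm (Fin l)} (hg : m.g = H720.TwFr.permE ρ) (i : Fin l) :
    m.π i = ρ.symm i := by
  have h1 := m.perm (sr (ρ.symm i)) i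
  have h2 : H720.TwFr.permE ρ (sr (ρ.symm i)) i = 1 := sr_self (ρ.symm i)
  rw [hg, h2] at h1
  by_contra h3
  rw [sr_ne h3] at h1
  exact one_ne_zero h1

/-- the primes for which all elementary abelian subgroups are toral -/
def TorP (D : ChevalleyDatum) (p : ℕ) : Prop :=
  (5 ≤ p ∧ (D = chevE8 → p ≠ 5)) ∨ (p = 3 ∧ (D = chevG2 ∨ D = chevD4))

theorem tors_all (hp : IsType D l M) {p : ℕ} (hpp : p.Prime) (hc : TorP D p) :
    ¬ p ^ 2 ∣ Nat.card M.Group ∧ Tors M.toCoxeterSystem hp.isCartan p := by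
  rcases hc with ⟨h5, h8⟩ | ⟨rfl, hD⟩
  · exact H508.Tor.tors_five hp hpp h5 h8
  · have h := hp
    simp only [IsType, typeList, List.mem_cons, List.not_mem_nil, or_false, Prod.mk.injEq] at h
    have hne : ∀ {D D' : ChevalleyDatum}, D.nroots ≠ D'.nroots → D ≠ D' := fun h e => h (e ▸ rfl)
    have hB : chevB2 ≠ chevG2 ∧ chevB2 ≠ chevD4 := ⟨hne (by decide +kernel), hne (by decide +kernel)⟩
    have hF : chevF4 ≠ chevG2 ∧ chevF4 ≠ chevD4 := ⟨hne (by decide +kernel), hne (by decide +kernel)⟩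
    have h6 : chevE6 ≠ chevG2 ∧ chevE6 ≠ chevD4 := ⟨hne (by decide +kernel), hne (by decide +kernel)⟩
    have h7 : chevE7 ≠ chevG2 ∧ chevE7 ≠ chevD4 := ⟨hne (by decide +kernel), hne (by decide +kernel)⟩
    have h8 : chevE8 ≠ chevG2 ∧ chevE8 ≠ chevD4 := ⟨hne (by decide +kernel), hne (by decide +kernel)⟩
    rcases h with ⟨rfl, h⟩ | ⟨rfl, h⟩ | ⟨rfl, h⟩ | ⟨rfl, h⟩ | ⟨rfl, h⟩ | ⟨rfl, h⟩ | ⟨rfl, h⟩
    all_goals cases h
    · exact tors_G2 hp
    · exact absurd hD (by tauto)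
    · exact tors_D4 hp
    · exact absurd hD (by tauto)
    · exact absurd hD (by tauto)
    · exact absurd hD (by tauto)
    · exact absurd hD (by tauto)

/-- **Elementary abelian subgroups are toral.** -/
theorem toral_all (hp : IsType D l M) {p : ℕ} (hpp : p.Prime) (hpr : p ≠ r) (hc : TorP D p)
    {E : Subgroup ↥(D.group (KK r))} [Finite ↥E] (hE : IsElementaryAbelian p E) :
    ∃ z : ↥(D.group (KK r)), ∀ a ∈ E, z * a * z⁻¹ ∈ TT D (KK r) := by
  have := Fact.mk hpp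
  obtain ⟨hW, hT⟩ := tors_all hp hpp hc
  refine exists_toral_abelian hp r (locFin r) hpp hpr hW hT (elab_isPGroup hE) fun a ha b hb => ?_
  have hcomm := hE.1
  exact congrArg Subtype.val (hcomm.is_comm.comm (⟨a, ha⟩ : ↥E) ⟨b, hb⟩)

theorem finite_of_fix (m : MData hp r q K₀) {E : Subgroup ↥(D.group (KK r))} (hσ : ∀ y ∈ E, m.σ y = y) :
    Finite ↥E := by
  have := m.fin
  exact Finite.of_injective (fun a : ↥E => (⟨a.1, hσ a.1 a.2⟩ : ↥(fixedSubgroup m.σ)))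
    fun a b h => Subtype.ext (congrArg (fun z : ↥(fixedSubgroup m.σ) => z.1) h)

/-- the condition `(w g)² ≠ -1` for all `w` -/
def NS (m : MData hp r q K₀) : Prop :=
  ∀ w, ∃ x, rep M.toCoxeterSystem hp.isCartan w (m.g (rep M.toCoxeterSystem hp.isCartan w (m.g x))) ≠ -x

/-- **X1 and X2**: toral `E`. -/
theorem x12 (m : MData hp r q K₀) (h : HiList D) [IsSimpleGroup K₀] (hq : 3 ≤ q) (hG2 : D = chevG2 → 4 ≤ q)
    {p : ℕ} [hpp : Fact p.Prime] {E : Subgroup ↥(D.group (KK r))} (hE : IsElementaryAbelian p E)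
    (hEσ : ∀ y ∈ E, m.σ y = y) (hE2 : p ^ 2 ≤ Nat.card ↥E)
    {z : ↥(D.group (KK r))} (hz : ∀ a ∈ E, z * a * z⁻¹ ∈ TT D (KK r))
    (hNS : ¬ p ∣ q ^ 2 + 1 ∨ NS m) : GamY m.ι p E = ⊤ := by
  have := m.finite
  have := finite_of_fix m hEσ
  have hp1 := hpp.out.one_lt
  obtain ⟨F, hF, hFi⟩ := exists_hyperplane hE (le_trans (by nlinarith) hE2)
  exact gen_top h m hq hG2 hpp.out (fun a ha => hE.2 a ha) ⟨F, hF, hFi⟩ hEσ hz hNS fun F hF hFi a ha =>
    mem_GamY hF hFi fun y hy => (ha y hy).symm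

/-- **X1 and X2** for a toral subgroup `F₀` and a subgroup `M₀` containing the `r`-elements of the centralisers of the
hyperplanes of `F₀`. -/
theorem x12_r (m : MData hp r q K₀) (h : HiList D) [IsSimpleGroup K₀] (hq : 3 ≤ q) (hG2 : D = chevG2 → 4 ≤ q)
    {p : ℕ} [hpp : Fact p.Prime] {F₀ : Subgroup ↥(D.group (KK r))} (hE : IsElementaryAbelian p F₀)
    (hEσ : ∀ y ∈ F₀, m.σ y = y) (hE2 : p ≤ Nat.card ↥F₀)
    {z : ↥(D.group (KK r))} (hz : ∀ a ∈ F₀, z * a * z⁻¹ ∈ TT D (KK r))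
    (hNS : ¬ p ∣ q ^ 2 + 1 ∨ NS m) {M₀ : Subgroup K₀}
    (hM : ∀ F ≤ F₀, F.relIndex F₀ = p → ∀ a : K₀, (∃ j, a ^ r ^ j = 1) → (∀ x ∈ F, m.ι a * x = x * m.ι a) → a ∈ M₀) :
    M₀ = ⊤ := by
  have := m.finite
  have := finite_of_fix m hEσ
  obtain ⟨F, hF, hFi⟩ := exists_hyperplane hE hE2
  exact gen_top_r h m hq hG2 hpp.out (fun a ha => hE.2 a ha) ⟨F, hF, hFi⟩ hEσ hz hNS hM

/-- **`GenIn`** for the primes with toral subgroups. -/
theorem genIn_toral (m : MData hp r q K₀) (h : HiList D) [IsSimpleGroup K₀] (hq : 3 ≤ q) (hG2 : D = chevG2 → 4 ≤ q)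
    {p : ℕ} (hpp : p.Prime) (hpr : p ≠ r) (hc : TorP D p) (hNS : ¬ p ∣ q ^ 2 + 1 ∨ NS m) : GenIn m p := by
  have := Fact.mk hpp
  intro E hE hσ hE2
  have := finite_of_fix m hσ
  obtain ⟨z, hz⟩ := toral_all hp hpp hpr hc hE
  exact x12 m h hq hG2 hE hσ hE2 hz hNS

end

/-! ### the types -/

section

variable {r q : ℕ} [hr : Fact r.Prime] {K₀ : Type v} [Group K₀]

theorem three_not_dvd_sq (q : ℕ) : ¬ 3 ∣ q ^ 2 + 1 := by
  intro h
  have h1 : (q ^ 2 + 1) % 3 = 0 := Nat.mod_eq_zero_of_dvd h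
  have h2 : q % 3 = 0 ∨ q % 3 = 1 ∨ q % 3 = 2 := by omega
  rcases h2 with h2 | h2 | h2 <;> simp [Nat.add_mod, Nat.pow_mod, h2] at h1

theorem ns_g2 {hp : IsType chevG2 2 CoxeterMatrix.G₂} (m : MData hp r q K₀) : NS m :=
  ns_G2 hp _ m.fr.root m.top

theorem ns_e7 {hp : IsType chevE7 7 CoxeterMatrix.E₇} (m : MData hp r q K₀) : NS m := fun w =>
  ns_odd (by decide) (m.g.trans (repAut _ hp.isCartan w))

theorem ns_e6 {hp : IsType chevE6 6 CoxeterMatrix.E₆} (m : MData hp r q K₀) (hπ : ∀ i, m.π (m.π i) = i) : NS m :=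
  ns_mod hp _ m.fr.root m.perm v6_dvd (i := 0) (by rw [hπ]; decide)

theorem ns_e6' {hp : IsType chevE6 6 CoxeterMatrix.E₆} (m : MData hp r q K₀)
    (hg : m.g = AddEquiv.refl _ ∨ m.g = H720.TwFr.permE H720.TwFr.rho6) : NS m := by
  refine ns_e6 m fun i => ?_
  rcases hg with hg | hg
  · rw [pi_of_refl m hg, pi_of_refl m hg]
  · rw [pi_of_permE m hg, pi_of_permE m hg]
    revert i
    decide

theorem ns_d4 {hp : IsType chevD4 4 coxeterD4} (m : MData hp r q K₀) (hg : m.g = H720.TwFr.permE H720.TwFr.rho4) :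
    NS m :=
  ns_mod hp _ m.fr.root m.perm v4_dvd (i := 0) (by
    rw [pi_of_permE m hg, pi_of_permE m hg]
    decide)

variable {p : ℕ} (hpp : p.Prime) (hpr : p ≠ r) [IsSimpleGroup K₀]

include hpp hpr

theorem genIn_G2 {hp : IsType chevG2 2 CoxeterMatrix.G₂} (m : MData hp r q K₀) (h3 : 3 ≤ p) (hq : 4 ≤ q) :
    GenIn m p := by
  refine genIn_toral m hi_G2 (by omega) (fun _ => hq) hpp hpr ?_ (Or.inr (ns_g2 m))
  rcases Nat.lt_or_ge p 5 with h4 | h4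
  · have h5 : p = 3 := by
      rcases (by omega : p = 3 ∨ p = 4) with h6 | h6
      · exact h6
      · rw [h6] at hpp
        exact absurd hpp (by norm_num)
    exact Or.inr ⟨h5, Or.inl rfl⟩
  · exact Or.inl ⟨h4, fun h5 => absurd h5 (ne_of_apply_ne ChevalleyDatum.nroots (by decide +kernel))⟩

theorem genIn_D4 {hp : IsType chevD4 4 coxeterD4} (m : MData hp r q K₀) (hg : m.g = H720.TwFr.permE H720.TwFr.rho4)
    (h3 : 3 ≤ p) (hq : 3 ≤ q) : GenIn m p := by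
  refine genIn_toral m hi_D4 hq (fun h5 => absurd h5 (ne_of_apply_ne ChevalleyDatum.nroots (by decide +kernel)))
    hpp hpr ?_ (Or.inr (ns_d4 m hg))
  rcases Nat.lt_or_ge p 5 with h4 | h4
  · have h5 : p = 3 := by
      rcases (by omega : p = 3 ∨ p = 4) with h6 | h6
      · exact h6
      · rw [h6] at hpp
        exact absurd hpp (by norm_num)
    exact Or.inr ⟨h5, Or.inr rfl⟩
  · exact Or.inl ⟨h4, fun h5 => absurd h5 (ne_of_apply_ne ChevalleyDatum.nroots (by decide +kernel))⟩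

theorem genIn_E6 {hp : IsType chevE6 6 CoxeterMatrix.E₆} (m : MData hp r q K₀)
    (hg : m.g = AddEquiv.refl _ ∨ m.g = H720.TwFr.permE H720.TwFr.rho6) (h5 : 5 ≤ p) (hq : 3 ≤ q) : GenIn m p :=
  genIn_toral m hi_E6 hq (fun h5 => absurd h5 (ne_of_apply_ne ChevalleyDatum.nroots (by decide +kernel))) hpp hpr
    (Or.inl ⟨h5, fun h5 => absurd h5 (ne_of_apply_ne ChevalleyDatum.nroots (by decide +kernel))⟩) (Or.inr (ns_e6' m hg))

theorem genIn_E7 {hp : IsType chevE7 7 CoxeterMatrix.E₇} (m : MData hp r q K₀) (h5 : 5 ≤ p) (hq : 3 ≤ q) :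
    GenIn m p :=
  genIn_toral m hi_E7 hq (fun h5 => absurd h5 (ne_of_apply_ne ChevalleyDatum.nroots (by decide +kernel))) hpp hpr
    (Or.inl ⟨h5, fun h5 => absurd h5 (ne_of_apply_ne ChevalleyDatum.nroots (by decide +kernel))⟩) (Or.inr (ns_e7 m))

theorem genIn_F4 {hp : IsType chevF4 4 CoxeterMatrix.F₄} (m : MData hp r q K₀) (h5 : 5 ≤ p) (hq : 3 ≤ q)
    (hd : ¬ p ∣ q ^ 2 + 1) : GenIn m p :=
  genIn_toral m hi_F4 hq (fun h5 => absurd h5 (ne_of_apply_ne ChevalleyDatum.nroots (by decide +kernel))) hpp hpr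
    (Or.inl ⟨h5, fun h5 => absurd h5 (ne_of_apply_ne ChevalleyDatum.nroots (by decide +kernel))⟩) (Or.inl hd)

theorem genIn_E8 {hp : IsType chevE8 8 CoxeterMatrix.E₈} (m : MData hp r q K₀) (h5 : 7 ≤ p) (hq : 3 ≤ q)
    (hd : ¬ p ∣ q ^ 2 + 1) : GenIn m p :=
  genIn_toral m hi_E8 hq (fun h5 => absurd h5 (ne_of_apply_ne ChevalleyDatum.nroots (by decide +kernel))) hpp hpr
    (Or.inl ⟨by omega, fun _ => by omega⟩) (Or.inl hd)

end

end Cfsg.Agent.H225.Gen
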