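import Cfsg.Agent.H225.Gen.Fam
import Cfsg.Agent.H316.U3

/-!
# Density for the centralisers of toral subgroups (S2187, helper225)

* `frameD` : the frame of a finite toral family fixed by `σ`; `adjustD`;
* `stabU_centF` : `L` is stable under the `σ`-fixed `r`-elements commuting with all `x i`, `z x_i z⁻¹ ∈ TT`: then `L` is
  stable under `z⁻¹ X_γ z`, `γ ∈ SF (z x z⁻¹)`;
* `exists_hyp` : every root is trivial on a subgroup of index `p` of a toral elementary abelian group `E ≠ 1`;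
* `stabU_topF` : `L` stable under the `σ`-fixed `r`-elements of the centralisers of the subgroups of index `p` of the toral
  group `E`, `|E| ≥ p²` (or `> 1`): then `L` is stable under `D.group k`.
-/

set_option autoImplicit false
set_option linter.unusedSectionVars false
set_option linter.unusedVariables false

namespace Cfsg.Agent.H225.Gen

open CoxeterSystem Cfsg Cfsg.Lie Cfsg.Lie.ChevalleyDatum
open Cfsg.Agent.ChevalleyStructure Cfsg.Agent.ChevalleyStructure.Elts Cfsg.Agent.ChevalleyStructure.CoxeterGeom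
  Cfsg.Agent.ChevalleyStructure.CoxeterGeomTypes Cfsg.Agent.ChevalleyStructure.NPerm
open Cfsg.Agent.Tits.Roots Cfsg.Agent.Tits.Core Cfsg.Agent.Nodes Cfsg.Agent.Nodes.Reps Cfsg.Agent.Nodes.BNOf
  Cfsg.Agent.Nodes.SubComb Cfsg.Agent.Nodes.RGDChev Cfsg.Agent.Nodes.Bruhat Cfsg.Agent.Nodes.NormalForm Cfsg.Agent.Nodes.StabComb
open Cfsg.Agent.KFacts.RgdField Cfsg.Agent.KFacts.RgdChevCoord
open Cfsg.Agent.BpExc Cfsg.Agent.BpExc.TorCent Cfsg.Agent.BpExc.TorChev Cfsg.Agent.BpExc.Tow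
  Cfsg.Agent.BpExc.TowChev Cfsg.Agent.BpExc.Fr Cfsg.Agent.BpExc.Pair Cfsg.Agent.BpExc.LangFr Cfsg.Agent.GpExc.Field
  Cfsg.Agent.BpExc.NInst Cfsg.Agent.BpExc.NChev Cfsg.Agent.BpExc.Asm Cfsg.Agent.H469.Exc Cfsg.Agent.H316.U3
open scoped commutatorElement

universe u v

variable {D : ChevalleyDatum} {l : ℕ} {M : CoxeterMatrix (Fin l)} (hp : IsType D l M) {k : Type u} [Field k]
  {W : Type v} [Group W] (cs : CoxeterSystem M W)

section Frames

variable [IsAlgClosed k] (hk : LocFin k) {r e : ℕ} [Fact r.Prime] [CharP k r] (he : 0 < e)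
  {σ : MulAut ↥(D.group k)} (hσ : IsFrob r e σ) {ι : Type*} [Finite ι]

include he hσ in
theorem langF {t : ι → ↥(D.group k)} (ht : ∀ i, t i ∈ TT D k) (k' : ↥(D.group k))
    (g' : (Fin l → ℤ) ≃+ (Fin l → ℤ)) (F' : Fr cs hp.isCartan (TT D k) (XX D l k) (MulAut.conj k' * σ) g')
    (htt : ∀ i, (MulAut.conj k' * σ) (t i) = t i) (hk : LocFin k) :
    ∀ m ∈ MF cs hp.isCartan (XX D l k) (ch hp) t, ∃ y ∈ MF cs hp.isCartan (XX D l k) (ch hp) t,
      m = y⁻¹ * (MulAut.conj k' * σ) y := by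
  intro m hm
  have hTL := TL_eq (k := k) hp hk
  have hXL := XL_eq (k := k) hp hk
  have C := coordsL (k := k) hp cs hk r
  have C' : Coords cs hp.isCartan (TL (Tj hp (k := k))) (nc hp k) (XL (Xj hp (k := k))) (xc hp) (ch hp) := by
    rw [hTL, hXL]; exact C
  have F'' : Fr cs hp.isCartan (TL (Tj hp (k := k))) (XL (Xj hp (k := k))) (MulAut.conj k' * σ) g' := by
    rw [hTL, hXL]; exact F'
  exact lang_fr hp cs he (hσ.conj_mul k') F' (S := SF cs hp.isCartan (ch hp) t) (fun a ha => ha.1)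
    (fun a ha => (Fr_mem_SF C' F'' (fun i => by rw [hTL]; exact ht i) htt a).2 ha) hm

include hk he hσ in
/-- **The frame of a toral family.** -/
theorem frameD {g : (Fin l → ℤ) ≃+ (Fin l → ℤ)} (Fσ : Fr cs hp.isCartan (TT D k) (XX D l k) σ g)
    {x t : ι → ↥(D.group k)} {z : ↥(D.group k)} (hσx : ∀ i, σ (x i) = x i)
    (hz : ∀ i, z⁻¹ * x i * z = t i) (ht : ∀ i, t i ∈ TT D k) :
    ∃ (z' k' : ↥(D.group k)) (w : W), z⁻¹ * z' ∈ MF cs hp.isCartan (XX D l k) (ch hp) t ∧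
      (∀ i, z'⁻¹ * x i * z' = t i) ∧ z'⁻¹ * σ z' = k' ∧
      Fr cs hp.isCartan (TT D k) (XX D l k) (MulAut.conj k' * σ) (g.trans (repAut cs hp.isCartan w)) ∧
      ∀ i, (MulAut.conj k' * σ) (t i) = t i := by
  have := finite_W hp cs
  have H := tow (k := k) hp cs hk r
  have hTL := TL_eq (k := k) hp hk
  have hXL := XL_eq (k := k) hp hk
  have C := coordsL (k := k) hp cs hk r
  have hG := GG_eq_top (k := k) hp cs hk
  have C' : Coords cs hp.isCartan (TL (Tj hp (k := k))) (nc hp k) (XL (Xj hp (k := k))) (xc hp) (ch hp) := by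
    rw [hTL, hXL]; exact C
  have Fσ' : Fr cs hp.isCartan (TL (Tj hp (k := k))) (XL (Xj hp (k := k))) σ g := by rw [hTL, hXL]; exact Fσ
  have ht' : ∀ i, t i ∈ TL (Tj hp (k := k)) := fun i => by rw [hTL]; exact ht i
  obtain ⟨z', k', w, h1, h2, h3, h4, h5, h6⟩ := frame H C' hG Fσ' hσx hz ht' (fun k' g' F' htt => by
    rw [hXL]
    rw [hTL, hXL] at F'
    exact langF hp cs he hσ ht k' g' F' htt hk)
  rw [hXL] at h1
  rw [hTL, hXL] at h5
  exact ⟨z', k', w, h1, h2, h3, h5, h6⟩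

include hk he hσ in
/-- **The adjustment.** -/
theorem adjustD {x t : ι → ↥(D.group k)} {z k₀ : ↥(D.group k)} {g : (Fin l → ℤ) ≃+ (Fin l → ℤ)}
    (hz : ∀ i, z⁻¹ * x i * z = t i) (ht : ∀ i, t i ∈ TT D k) (hk₀ : z⁻¹ * σ z = k₀)
    (F0 : Fr cs hp.isCartan (TT D k) (XX D l k) (MulAut.conj k₀ * σ) g)
    (ht0 : ∀ i, (MulAut.conj k₀ * σ) (t i) = t i) :
    ∃ (z' k' : ↥(D.group k)) (v : W), z⁻¹ * z' ∈ MF cs hp.isCartan (XX D l k) (ch hp) t ∧
      (∀ i, z'⁻¹ * x i * z' = t i) ∧ z'⁻¹ * σ z' = k' ∧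
      Fr cs hp.isCartan (TT D k) (XX D l k) (MulAut.conj k' * σ) ((repAut cs hp.isCartan v).trans g) ∧
      (∀ i, (MulAut.conj k' * σ) (t i) = t i) ∧
      v ∈ Subgroup.closure {q | ∃ w i, rep cs hp.isCartan w (sr i) ∈ SF cs hp.isCartan (ch hp) t ∧
        q = rfl' cs w i} ∧
      ∀ a ∈ SF cs hp.isCartan (ch hp) t, 0 ≤ a → 0 ≤ g (rep cs hp.isCartan v a) := by
  have := finite_W hp cs
  have H := tow (k := k) hp cs hk r
  have hTL := TL_eq (k := k) hp hk
  have hXL := XL_eq (k := k) hp hk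
  have C := coordsL (k := k) hp cs hk r
  have hA := chAddL (k := k) hp cs hk r
  have C' : Coords cs hp.isCartan (TL (Tj hp (k := k))) (nc hp k) (XL (Xj hp (k := k))) (xc hp) (ch hp) := by
    rw [hTL, hXL]; exact C
  have hA' : ChAdd cs hp.isCartan (TL (Tj hp (k := k))) (ch (K := k) hp) := by rw [hTL]; exact hA
  have ht' : ∀ i, t i ∈ TL (Tj hp (k := k)) := fun i => by rw [hTL]; exact ht i
  obtain ⟨z', k', v, h1, h2, h3, h4, h5, h6, h7⟩ := adjust H C' hA' hz ht' hk₀ (by rw [hTL, hXL]; exact F0) ht0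
    (fun k' g' F' htt => by
      rw [hXL]
      rw [hTL, hXL] at F'
      exact langF hp cs he hσ ht k' g' F' htt hk)
  rw [hXL] at h1
  rw [hTL, hXL] at h4
  exact ⟨z', k', v, h1, h2, h3, h4, h5, h6, h7⟩

/-- the elements of `MF` commute with the family -/
theorem MF_commD (hk : LocFin k) (r : ℕ) [Fact r.Prime] [CharP k r] {t : ι → ↥(D.group k)} (ht : ∀ i, t i ∈ TT D k)
    {y : ↥(D.group k)}
    (hy : y ∈ MF cs hp.isCartan (XX D l k) (ch hp) t) (i : ι) : y * t i = t i * y := by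
  have hTL := TL_eq (k := k) hp hk
  have hXL := XL_eq (k := k) hp hk
  have C := coordsL (k := k) hp cs hk r
  have C' : Coords cs hp.isCartan (TL (Tj hp (k := k))) (nc hp k) (XL (Xj hp (k := k))) (xc hp) (ch hp) := by
    rw [hTL, hXL]; exact C
  exact MF_comm C' (fun i => by rw [hTL]; exact ht i) (by rw [hXL]; exact hy) i

/-- the elements of `Sup XX Neg` are `r`-elements -/
theorem pow_of_negD (hk : LocFin k) (r : ℕ) [Fact r.Prime] [CharP k r] {y : ↥(D.group k)}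
    {S : Set (Fin l → ℤ)} (hS : ∀ a ∈ S, IsRoot cs hp.isCartan a ∧ a ≤ 0)
    (hy : y ∈ RGD.Sup (XX D l k) S) : ∃ j, y ^ r ^ j = 1 := by
  have := finite_W hp cs
  have H := tow (k := k) hp cs hk r
  obtain ⟨c, -, hc⟩ := H.exists_rp (w0 cs)
  have Fc := Fr.conj H hc
  rw [TL_eq (k := k) hp hk, XL_eq (k := k) hp hk] at Fc
  have h6 : c * y * c⁻¹ ∈ RGD.Sup (XX D l k) (RGD.Pos cs hp.isCartan) := by
    have h7 : RGD.Sup (XX D l k) S ≤
        (RGD.Sup (XX D l k) (RGD.Pos cs hp.isCartan)).comap (MulAut.conj c).toMonoidHom := by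
      refine RGD.Sup_le fun a ha => ?_
      intro w hw
      have h8 : repAut cs hp.isCartan (w0 cs) a ∈ RGD.Pos cs hp.isCartan :=
        ⟨(hS a ha).1.act _, rep_w0_nonneg (hS a ha).1 (hS a ha).2⟩
      exact RGD.le_Sup (X := XX D l k) h8 ((Fc.map a (hS a ha).1 w).2 hw)
    exact h7 hy
  obtain ⟨j, hj⟩ := pow_of_pos hp cs hk (r := r) h6
  refine ⟨j, ?_⟩
  rw [conj_pow] at hj
  have h8 : c * y ^ r ^ j = c := mul_inv_eq_one.1 hj
  exact mul_eq_left.1 h8

/-- root elements are `r`-elements -/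
theorem pow_of_rootD (hk : LocFin k) (r : ℕ) [Fact r.Prime] [CharP k r] {y : ↥(D.group k)}
    {a : Fin l → ℤ} (ha : IsRoot cs hp.isCartan a) (hy : y ∈ XX D l k a) : ∃ j, y ^ r ^ j = 1 := by
  rcases ha.pos_or_neg with h0 | h0
  · exact pow_of_pos hp cs hk (r := r) (RGD.le_Sup (X := XX D l k) (S := RGD.Pos cs hp.isCartan) ⟨ha, h0⟩ hy)
  · exact pow_of_negD hp cs hk r (S := {b | IsRoot cs hp.isCartan b ∧ b ≤ 0}) (fun b hb => hb)
      (RGD.le_Sup (X := XX D l k) (S := {b | IsRoot cs hp.isCartan b ∧ b ≤ 0}) ⟨ha, h0⟩ hy)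

include hk he hσ in
/-- **The centraliser of a toral family.** -/
theorem stabU_centF (hd : Density hp cs k r e) {g : (Fin l → ℤ) ≃+ (Fin l → ℤ)}
    (Fσ : Fr cs hp.isCartan (TT D k) (XX D l k) σ g) {x : ι → ↥(D.group k)} {z : ↥(D.group k)}
    (hσx : ∀ i, σ (x i) = x i) (hz : ∀ i, z * x i * z⁻¹ ∈ TT D k) {L : Submodule k (D.Idx → k)}
    (hL : ∀ u, σ u = u → (∀ i, u * x i = x i * u) → (∃ j, u ^ r ^ j = 1) → StabU L u) {γ : Fin l → ℤ}
    (hγ : γ ∈ SF cs hp.isCartan (ch hp) fun i => z * x i * z⁻¹) {u : ↥(D.group k)} (hu : u ∈ XX D l k γ) :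
    StabU L (z⁻¹ * u * z) := by
  have := finite_W hp cs
  have H := tow (k := k) hp cs hk r
  have hTL := TL_eq (k := k) hp hk
  have hXL := XL_eq (k := k) hp hk
  have C := coordsL (k := k) hp cs hk r
  have hA := chAddL (k := k) hp cs hk r
  have C' : Coords cs hp.isCartan (TL (Tj hp (k := k))) (nc hp k) (XL (Xj hp (k := k))) (xc hp) (ch hp) := by
    rw [hTL, hXL]; exact C
  have hA' : ChAdd cs hp.isCartan (TL (Tj hp (k := k))) (ch (K := k) hp) := by rw [hTL]; exact hA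
  set t : ι → ↥(D.group k) := fun i => z * x i * z⁻¹ with ht
  have ht' : ∀ i, t i ∈ TL (Tj hp (k := k)) := fun i => by rw [hTL]; exact hz i
  obtain ⟨z₀, k₀, w, a1, a2, a3, a5, a6⟩ := frameD hp cs hk he hσ Fσ hσx (z := z⁻¹) (t := t)
    (fun i => by rw [ht]; group) hz
  obtain ⟨z', k', v, b1, b2, b3, b4, b5, -, b7⟩ := adjustD hp cs hk he hσ a2 hz a3 a5 a6
  set g' : (Fin l → ℤ) ≃+ (Fin l → ℤ) := (repAut cs hp.isCartan v).trans (g.trans (repAut cs hp.isCartan w)) with hg'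
  have b4' : Fr cs hp.isCartan (TL (Tj hp (k := k))) (XL (Xj hp (k := k))) (MulAut.conj k' * σ) g' := by
    rw [hTL, hXL]; exact b4
  have hgS : ∀ a, g' a ∈ SF cs hp.isCartan (ch hp) t ↔ a ∈ SF cs hp.isCartan (ch hp) t :=
    Fr_mem_SF C' b4' ht' b5
  have h5 : ∀ a ∈ SF cs hp.isCartan (ch hp) t, 0 ≤ a → 0 ≤ g' a := b7
  have hτ := hσ.conj_mul k'
  set τ : MulAut ↥(D.group k) := MulAut.conj k' * σ with hτdef
  -- the stable subspace
  have key : ∀ y : ↥(D.group k), τ y = y → (∀ i, y * t i = t i * y) → (∃ j, y ^ r ^ j = 1) → StabU (tr L z') y := by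
    intro y hy hyt ⟨j, hj⟩
    rw [stabU_tr]
    refine hL _ ?_ (fun i => ?_) ⟨j, ?_⟩
    · have h6 : k' * σ y * k'⁻¹ = y := hy
      have h7 : σ z' = z' * k' := by rw [← b3]; group
      rw [map_mul, map_mul, map_inv, h7]
      calc z' * k' * σ y * (z' * k')⁻¹ = z' * (k' * σ y * k'⁻¹) * z'⁻¹ := by group
        _ = _ := by rw [h6]
    · have h6 : x i = z' * t i * z'⁻¹ := by rw [← b2]; group
      rw [h6]
      calc z' * y * z'⁻¹ * (z' * t i * z'⁻¹) = z' * (y * t i) * z'⁻¹ := by group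
        _ = z' * (t i * y) * z'⁻¹ := by rw [hyt]
        _ = _ := by group
    · show (z' * y * z'⁻¹) ^ r ^ j = 1
      rw [conj_pow, hj, mul_one, mul_inv_cancel]
  have hcent : ∀ S ⊆ SF cs hp.isCartan (ch hp) t, ∀ y ∈ RGD.Sup (XX D l k) S, ∀ i, y * t i = t i * y := by
    intro S hSs y hy i
    have h6 : y ∈ MF cs hp.isCartan (XX D l k) (ch hp) t := RGD.Sup_mono hSs hy
    exact MF_commD hp cs hk r hz h6 i
  have hcl : ∀ a ∈ SF cs hp.isCartan (ch hp) t, ∀ b ∈ SF cs hp.isCartan (ch hp) t, ∀ i j : ℕ,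
      IsRoot cs hp.isCartan (i • a + j • b) → i • a + j • b ∈ SF cs hp.isCartan (ch hp) t := by
    intro a ha b hb i j hij
    have := SF_closed hA' ht' ha hb (i : ℤ) (j : ℤ) (by rwa [natCast_zsmul, natCast_zsmul])
    rwa [natCast_zsmul, natCast_zsmul] at this
  have hneg : ∀ a ∈ SF cs hp.isCartan (ch hp) t, -a ∈ SF cs hp.isCartan (ch hp) t := fun a ha => SF_neg hA' ht' ha
  -- positive roots
  have hP : ∀ y ∈ RGD.Sup (XX D l k) {a | a ∈ SF cs hp.isCartan (ch hp) t ∧ 0 ≤ a}, StabU (tr L z') y := by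
    refine hd τ hτ g' b4 {a | a ∈ SF cs hp.isCartan (ch hp) t ∧ 0 ≤ a} (fun a ha => ⟨ha.1.1, ha.2⟩)
      (fun a ha => ⟨(hgS a).2 ha.1, h5 a ha.1 ha.2⟩) ?_ _ ?_
    · intro a ha b hb i j _ _ hij
      exact ⟨hcl a ha.1 b hb.1 i j hij, add_nonneg (nsmul_nonneg ha.2 i) (nsmul_nonneg hb.2 j)⟩
    · intro y hy hyτ
      refine key y hyτ (hcent _ (fun a ha => ha.1) y hy) (pow_of_pos hp cs hk (r := r) ?_)
      exact RGD.Sup_mono (X := XX D l k) (S' := RGD.Pos cs hp.isCartan)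
        (fun a ha => ⟨ha.1.1, ha.2⟩) hy
  have hN : ∀ y ∈ RGD.Sup (XX D l k) {a | a ∈ SF cs hp.isCartan (ch hp) t ∧ a ≤ 0}, StabU (tr L z') y := by
    refine Density.neg hp cs hk hd hτ b4 (S := {a | a ∈ SF cs hp.isCartan (ch hp) t ∧ a ≤ 0})
      (fun a ha => ⟨ha.1.1, ha.2⟩)
      (fun a ha => ?_) ?_ _ ?_
    · refine ⟨(hgS a).2 ha.1, ?_⟩
      have h6 := h5 (-a) (hneg a ha.1) (neg_nonneg.2 ha.2)
      rw [map_neg] at h6
      exact neg_nonneg.1 h6
    · intro a ha b hb i j _ _ hij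
      refine ⟨hcl a ha.1 b hb.1 i j hij, ?_⟩
      have h6 := add_nonneg (nsmul_nonneg (neg_nonneg.2 ha.2) i) (nsmul_nonneg (neg_nonneg.2 hb.2) j)
      rw [smul_neg, smul_neg, ← neg_add, neg_nonneg] at h6
      exact h6
    · intro y hy hyτ
      exact key y hyτ (hcent _ (fun a ha => ha.1) y hy) (pow_of_negD hp cs hk r (fun a ha => ⟨ha.1.1, ha.2⟩) hy)
  -- everything
  have hall : MF cs hp.isCartan (XX D l k) (ch hp) t ≤ stab (tr L z') := by
    refine RGD.Sup_le fun a ha => ?_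
    intro y hy
    rw [mem_stab]
    rcases ha.1.pos_or_neg with h6 | h6
    · exact hP y (RGD.le_Sup (X := XX D l k) (S := {a | a ∈ SF cs hp.isCartan (ch hp) t ∧ 0 ≤ a}) ⟨ha, h6⟩ hy)
    · exact hN y (RGD.le_Sup (X := XX D l k) (S := {a | a ∈ SF cs hp.isCartan (ch hp) t ∧ a ≤ 0}) ⟨ha, h6⟩ hy)
  -- independence of `z`
  have hc : z * z' ∈ MF cs hp.isCartan (XX D l k) (ch hp) t := by
    have e1 : z * z' = z⁻¹⁻¹ * z₀ * (z₀⁻¹ * z') := by group
    rw [e1]
    exact mul_mem a1 b1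
  have hu' : u ∈ MF cs hp.isCartan (XX D l k) (ch hp) t := RGD.le_Sup (X := XX D l k) hγ hu
  have h7 := hall (mul_mem (mul_mem (inv_mem hc) hu') hc)
  rw [mem_stab, stabU_tr] at h7
  have e2 : z' * ((z * z')⁻¹ * u * (z * z')) * z'⁻¹ = z⁻¹ * u * z := by group
  rwa [e2] at h7

end Frames

/-- the character values -/
theorem ch_mulD (hk : LocFin k) (r : ℕ) [Fact r.Prime] [CharP k r] {γ : Fin l → ℤ} (hγ : IsRoot cs hp.isCartan γ)
    {z a b : ↥(D.group k)} (ha : z * a * z⁻¹ ∈ TT D k) (hb : z * b * z⁻¹ ∈ TT D k) :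
    ch hp γ (z * (a * b) * z⁻¹) = ch hp γ (z * a * z⁻¹) * ch hp γ (z * b * z⁻¹) := by
  have C := coordsL (k := k) hp cs hk r
  have e1 : z * (a * b) * z⁻¹ = z * a * z⁻¹ * (z * b * z⁻¹) := by group
  rw [e1, (C.coord γ hγ).chi_mul ha hb]

/-- **Every root is trivial on a subgroup of index `p`.** -/
theorem exists_hyp (hk : LocFin k) (r : ℕ) [Fact r.Prime] [CharP k r] {p : ℕ} (hpp : p.Prime)
    {E : Subgroup ↥(D.group k)} [Finite ↥E] (hEp : ∀ a ∈ E, a ^ p = 1)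
    (hyp : ∃ F ≤ E, (F.subgroupOf E).index = p) {z : ↥(D.group k)}
    (hz : ∀ a ∈ E, z * a * z⁻¹ ∈ TT D k) {γ : Fin l → ℤ} (hγ : IsRoot cs hp.isCartan γ) :
    ∃ F ≤ E, (F.subgroupOf E).index = p ∧ ∀ a ∈ F, ch hp γ (z * a * z⁻¹) = 1 := by
  classical
  have C := coordsL (k := k) hp cs hk r
  have hone : ch (K := k) hp γ 1 = 1 := by
    have h1 := (C.coord γ hγ).chi_mul (one_mem (TT D k)) (one_mem _)
    rw [mul_one] at h1
    exact (mul_eq_left₀ ((C.coord γ hγ).chi_ne_zero (one_mem _))).1 h1.symm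
  have hval : ∀ a ∈ E, ch hp γ (z * a * z⁻¹) ^ p = 1 := fun a ha => by
    rw [← ch_pow hp cs hk (r := r) hγ (hz a ha), conj_pow, hEp _ ha, mul_one, mul_inv_cancel, hone]
  let f : ↥E →* kˣ :=
    { toFun := fun a => Units.mk0 (ch hp γ (z * a.1 * z⁻¹)) ((C.coord γ hγ).chi_ne_zero (hz a.1 a.2))
      map_one' := by
        ext
        show ch hp γ (z * 1 * z⁻¹) = 1
        rw [mul_one, mul_inv_cancel, hone]
      map_mul' := fun a b => by
        ext
        exact ch_mulD hp cs hk r hγ (hz a.1 a.2) (hz b.1 b.2) }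
  by_cases hf : ∀ a ∈ E, ch hp γ (z * a * z⁻¹) = 1
  · obtain ⟨F, hF, hFi⟩ := hyp
    exact ⟨F, hF, hFi, fun a ha => hf a (hF ha)⟩
  · refine ⟨f.ker.map E.subtype, ?_, ?_, ?_⟩
    · rintro _ ⟨a, -, rfl⟩
      exact a.2
    · have h1 : (f.ker.map E.subtype).subgroupOf E = f.ker := by
        rw [Subgroup.subgroupOf, Subgroup.comap_map_eq_self_of_injective E.subtype_injective]
      rw [h1, Subgroup.index_ker]
      -- the range is a nontrivial group of `p`-th roots of unity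
      have hle : Nat.card ↥f.range ≤ p := by
        let g : ↥f.range → ↥(Polynomial.nthRootsFinset p (1 : k)) := fun a => ⟨(a.1 : k), by
          rw [Polynomial.mem_nthRootsFinset hpp.pos]
          obtain ⟨b, hb⟩ := a.2
          rw [← hb]
          exact hval b.1 b.2⟩
        have hg : Function.Injective g := by
          intro a b hab
          exact Subtype.ext (Units.ext (congrArg Subtype.val hab))
        refine le_trans (Nat.card_le_card_of_injective g hg) ?_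
        rw [Nat.card_eq_fintype_card, Fintype.card_coe]
        calc (Polynomial.nthRootsFinset p (1 : k)).card ≤ Multiset.card (Polynomial.nthRoots p (1 : k)) := by
              unfold Polynomial.nthRootsFinset
              exact Multiset.toFinset_card_le _
          _ ≤ p := Polynomial.card_nthRoots p 1
      push Not at hf
      obtain ⟨a, ha, ha1⟩ := hf
      have := Fact.mk hpp
      have h2 : orderOf (f ⟨a, ha⟩) = p := by
        refine orderOf_eq_prime ?_ ?_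
        · ext
          exact hval a ha
        · intro h3
          exact ha1 (congrArg Units.val h3)
      have h3 : p ∣ Nat.card ↥f.range := by
        rw [← h2, ← Subgroup.orderOf_mk (f ⟨a, ha⟩) (MonoidHom.mem_range.2 ⟨_, rfl⟩)]
        exact orderOf_dvd_natCard _
      have : Finite ↥f.range := Finite.of_surjective _ f.rangeRestrict_surjective
      exact le_antisymm hle (Nat.le_of_dvd Nat.card_pos h3)
    · rintro _ ⟨a, ha, rfl⟩
      exact congrArg Units.val ((MonoidHom.mem_ker (f := f)).1 ha)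

include cs in
/-- **A subspace stable under the unipotent elements of the centralisers of the hyperplanes of a toral group.** -/
theorem stabU_topF [IsAlgClosed k] (hk : LocFin k) {r e : ℕ} [Fact r.Prime] [CharP k r] (he : 0 < e)
    (hd : Density hp cs k r e) {σ : MulAut ↥(D.group k)} (hσ : IsFrob r e σ) {g : (Fin l → ℤ) ≃+ (Fin l → ℤ)}
    (Fσ : Fr cs hp.isCartan (TT D k) (XX D l k) σ g) {p : ℕ} (hpp : p.Prime)
    {E : Subgroup ↥(D.group k)} [Finite ↥E] (hEp : ∀ a ∈ E, a ^ p = 1) (hyp : ∃ F ≤ E, (F.subgroupOf E).index = p)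
    (hEσ : ∀ a ∈ E, σ a = a)
    {z : ↥(D.group k)} (hz : ∀ a ∈ E, z * a * z⁻¹ ∈ TT D k) {L : Submodule k (D.Idx → k)}
    (hL : ∀ F ≤ E, (F.subgroupOf E).index = p → ∀ u, σ u = u → (∀ x ∈ F, u * x = x * u) → (∃ j, u ^ r ^ j = 1) →
      StabU L u)
    (u : ↥(D.group k)) : StabU L u := by
  have h1 : RGD.Sup (XX D l k) {a | IsRoot cs hp.isCartan a} ≤ stab (tr L z⁻¹) := by
    refine RGD.Sup_le fun γ hγ => ?_
    intro y hy
    obtain ⟨F, hF, hFi, hFγ⟩ := exists_hyp hp cs hk r hpp hEp hyp hz hγ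
    rw [mem_stab, stabU_tr, inv_inv]
    have : Finite ↥F := Finite.of_injective _ (Subgroup.inclusion_injective hF)
    refine stabU_centF hp cs hk he hσ (ι := ↥F) hd Fσ (x := fun i => i.1) (z := z) (fun i => hEσ _ (hF i.2))
      (fun i => hz _ (hF i.2)) (fun u hu hux hur => hL F hF hFi u hu (fun x hx => hux ⟨x, hx⟩) hur)
      (γ := γ) ⟨hγ, fun i => hFγ _ i.2⟩ hy
  have h2 : RGD.Sup (XX D l k) {a | IsRoot cs hp.isCartan a} = ⊤ := by
    rw [eq_top_iff, ← G1_eq_top (K := k) hp cs]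
    exact le_rfl
  rw [h2] at h1
  have h3 := h1 (Subgroup.mem_top (z * u * z⁻¹))
  rw [mem_stab, stabU_tr, inv_inv] at h3
  have e1 : z⁻¹ * (z * u * z⁻¹) * z = u := by group
  rwa [e1] at h3

end Cfsg.Agent.H225.Gen
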